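import Cfsg.Agent.Lib.H15.ZStarMain
import Cfsg.Agent.Lib.H15.OddCore

/-! Isolated involutions from an abelian Sylow 2-subgroup and a normal subgroup missing an element. -/

set_option autoImplicit false
set_option linter.style.haveILetI false
set_option linter.unusedSectionVars false

namespace Cfsg.Agent.H05.AI

open Cfsg
open scoped Pointwise

variable {Y : Type*} [Group Y] [Finite Y]

/-- Conjugating a `p`-subgroup of `X` into a Sylow subgroup `T ≤ X` by an element of `X`. -/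
theorem exists_conj_le {p : ℕ} [Fact p.Prime] {T X R : Subgroup Y} (hTp : IsPGroup p T)
    (hTi : ¬ p ∣ T.index) (hTX : T ≤ X) (hRX : R ≤ X) (hRp : IsPGroup p R) :
    ∃ x ∈ X, ∀ r ∈ R, x * r * x⁻¹ ∈ T := by
  have hT' : IsPGroup p (T.subgroupOf X) := hTp.of_equiv (T.subgroupOfEquivOfLe hTX).symm
  have hi : ¬ p ∣ (T.subgroupOf X).index := by
    intro h
    apply hTi
    have h2 : T.relIndex X * X.index = T.index := Subgroup.relIndex_mul_index hTX
    rw [← h2]
    exact Dvd.dvd.mul_right h _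
  let S₀ : Sylow p X := hT'.toSylow hi
  have hR' : IsPGroup p (R.subgroupOf X) := hRp.of_equiv (R.subgroupOfEquivOfLe hRX).symm
  obtain ⟨Q, hQ⟩ := hR'.exists_le_sylow
  obtain ⟨g, hg⟩ := MulAction.exists_smul_eq X Q S₀
  refine ⟨(g : Y), g.2, ?_⟩
  intro r hr
  have h1 : (⟨r, hRX hr⟩ : X) ∈ (Q : Subgroup X) := hQ (by simpa [Subgroup.mem_subgroupOf] using hr)
  have h2 : (MulAut.conj g • (⟨r, hRX hr⟩ : X) : X) ∈ MulAut.conj g • (Q : Subgroup X) :=
    Subgroup.smul_mem_pointwise_smul _ _ _ h1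
  have h4 : ((g • Q : Sylow p X) : Subgroup X) = MulAut.conj g • (Q : Subgroup X) := rfl
  rw [← h4, hg] at h2
  have h3 : (g * ⟨r, hRX hr⟩ * g⁻¹ : X) ∈ T.subgroupOf X := h2
  simpa [Subgroup.mem_subgroupOf] using h3

/-- Burnside fusion in an abelian Sylow subgroup. -/
theorem burnside_fusion {T : Subgroup Y} (hTc : ∀ x ∈ T, ∀ y ∈ T, x * y = y * x)
    (hTp : IsPGroup 2 T) (hTi : ¬ 2 ∣ T.index) {u : Y} (hu : u ∈ T) (y : Y)
    (hv : y * u * y⁻¹ ∈ T) : ∃ n : Y, (∀ t ∈ T, n * t * n⁻¹ ∈ T) ∧ y * u * y⁻¹ = n * u * n⁻¹ := by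
  set v := y * u * y⁻¹ with hvd
  let X : Subgroup Y := Subgroup.centralizer ({v} : Set Y)
  have hTX : T ≤ X := by
    intro t ht
    rw [Subgroup.mem_centralizer_singleton_iff]
    exact hTc t ht v hv
  let R : Subgroup Y := T.map (MulAut.conj y).toMonoidHom
  have hRX : R ≤ X := by
    rintro _ ⟨t, ht, rfl⟩
    rw [Subgroup.mem_centralizer_singleton_iff]
    have h1 := hTc t ht u hu
    simp only [MulEquiv.coe_toMonoidHom, MulAut.conj_apply, hvd]
    calc y * t * y⁻¹ * (y * u * y⁻¹) = y * (t * u) * y⁻¹ := by group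
      _ = y * (u * t) * y⁻¹ := by rw [h1]
      _ = y * u * y⁻¹ * (y * t * y⁻¹) := by group
  have hRp : IsPGroup 2 R := hTp.map _
  obtain ⟨x, hx, hxr⟩ := exists_conj_le hTp hTi hTX hRX hRp
  refine ⟨x * y, ?_, ?_⟩
  · intro t ht
    have h1 := hxr _ (Subgroup.mem_map_of_mem (MulAut.conj y).toMonoidHom ht)
    simp only [MulEquiv.coe_toMonoidHom, MulAut.conj_apply] at h1
    have : x * y * t * (x * y)⁻¹ = x * (y * t * y⁻¹) * x⁻¹ := by group
    rw [this]; exact h1
  · have hxv : x * v = v * x := (Subgroup.mem_centralizer_singleton_iff.mp hx)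
    have : x * y * u * (x * y)⁻¹ = x * v * x⁻¹ := by rw [hvd]; group
    rw [this, hxv]; group

theorem norm_fixed {A : Type*} [CommGroup A] (O : Finset A) (φ : A ≃* A) (h : ∀ t, t ∈ O ↔ φ t ∈ O) :
    φ (∏ t ∈ O, t) = ∏ t ∈ O, t := by
  classical
  rw [map_prod]
  refine Finset.prod_bij (fun t _ => φ t) (fun t ht => (h t).1 ht) (fun _ _ _ _ hxy => φ.injective hxy) ?_ ?_
  · intro b hb
    refine ⟨φ.symm b, ?_, by simp⟩
    rw [h]; simpa using hb
  · intro _ _; rfl

theorem norm_coset {A : Type*} [CommGroup A] (J : Subgroup A) (O : Finset A) (a : A)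
    (h : ∀ t ∈ O, t * a⁻¹ ∈ J) : (∏ t ∈ O, t) * (a ^ O.card)⁻¹ ∈ J := by
  classical
  have : (∏ t ∈ O, t) * (a ^ O.card)⁻¹ = ∏ t ∈ O, (t * a⁻¹) := by
    rw [Finset.prod_mul_distrib, Finset.prod_const, inv_pow]
  rw [this]
  exact J.prod_mem h

theorem mem_normalizer_of_forall {T : Subgroup Y} {n : Y} (h : ∀ t ∈ T, n * t * n⁻¹ ∈ T) :
    n ∈ Subgroup.normalizer (T : Set Y) := by
  have hle : T.map (MulAut.conj n).toMonoidHom ≤ T := by
    rintro _ ⟨t, ht, rfl⟩
    exact h t ht
  have hcard : Nat.card (T.map (MulAut.conj n).toMonoidHom) = Nat.card T :=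
    Subgroup.card_map_of_injective (MulAut.conj n).injective
  have heq : T.map (MulAut.conj n).toMonoidHom = T :=
    Subgroup.eq_of_le_of_card_ge hle (le_of_eq hcard.symm)
  rw [Subgroup.mem_normalizer_iff]
  intro t
  refine ⟨fun ht => h t ht, fun ht => ?_⟩
  rw [← heq] at ht
  obtain ⟨t', ht', hh⟩ := ht
  have : t' = t := by
    simpa [MulAut.conj_apply] using hh
  exact this ▸ ht'

theorem exists_isolated (I T : Subgroup Y) [I.Normal] (hTc : ∀ x ∈ T, ∀ y ∈ T, x * y = y * x)
    (hTp : IsPGroup 2 T) (hTi : ¬ 2 ∣ T.index) (a : Y) (ha : a ∈ T) (haI : a ∉ I)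
    (hcomm : ∀ y : Y, y * a * y⁻¹ * a⁻¹ ∈ I) : ∃ w ∈ T, IsIsolatedInvolution w := by
  classical
  haveI : Fintype T := Fintype.ofFinite T
  let N : Subgroup Y := Subgroup.normalizer (T : Set Y)
  have hTN : T ≤ N := Subgroup.le_normalizer
  letI cT : CommGroup T :=
    { (inferInstance : Group T) with mul_comm := fun x y => Subtype.ext (hTc x x.2 y y.2) }
  letI act : MulAction N Y := MulAction.compHom Y ((MulAut.conj : Y →* MulAut Y).comp N.subtype)
  have hsm : ∀ (n : N) (y : Y), n • y = (n : Y) * y * (n : Y)⁻¹ := fun n y => rfl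
  have hnT : ∀ (n : N) (t : Y), t ∈ T → (n : Y) * t * (n : Y)⁻¹ ∈ T := fun n t ht =>
    (Subgroup.mem_normalizer_iff.mp n.2 t).1 ht
  have hodd : ¬ 2 ∣ (MulAction.orbit N a).ncard := by
    rw [← MulAction.index_stabilizer]
    intro h2
    apply hTi
    have h3 : (T.subgroupOf N) ≤ MulAction.stabilizer N a := by
      intro t ht
      rw [MulAction.mem_stabilizer_iff, hsm]
      have h4 : ((t : N) : Y) ∈ T := ht
      rw [hTc _ h4 a ha]
      group
    have h5 : (MulAction.stabilizer N a).index ∣ (T.subgroupOf N).index :=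
      Subgroup.index_dvd_of_le h3
    have h6 : T.relIndex N * N.index = T.index := Subgroup.relIndex_mul_index hTN
    rw [← h6]
    exact Dvd.dvd.mul_right (h2.trans h5) _
  let O : Finset T := Finset.univ.filter (fun t => (t : Y) ∈ MulAction.orbit N a)
  have hOmem : ∀ t : T, t ∈ O ↔ (t : Y) ∈ MulAction.orbit N a := fun t => by simp [O]
  have hOcard : O.card = (MulAction.orbit N a).ncard := by
    have h1 : MulAction.orbit N a = (fun t : T => (t : Y)) '' (O : Set T) := by
      ext y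
      constructor
      · rintro ⟨n, rfl⟩
        have h2 : (n • a : Y) ∈ T := by rw [hsm]; exact hnT n a ha
        exact ⟨⟨_, h2⟩, by simpa [hOmem] using (⟨n, rfl⟩ : (n • a : Y) ∈ MulAction.orbit N a), rfl⟩
      · rintro ⟨t, ht, rfl⟩
        exact (hOmem t).1 ht
    rw [h1, Set.ncard_image_of_injective _ Subtype.val_injective, Set.ncard_coe_finset]
  let c : T := ∏ t ∈ O, t
  have hfix : ∀ n : N, (n : Y) * (c : Y) * (n : Y)⁻¹ = c := by
    intro n
    let φ : T ≃* T :=
      { toFun := fun t => ⟨(n : Y) * t * (n : Y)⁻¹, hnT n t t.2⟩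
        invFun := fun t => ⟨(n : Y)⁻¹ * t * (n : Y), by
          have := hnT n⁻¹ t t.2
          simpa using this⟩
        left_inv := fun t => Subtype.ext (by
          show (n : Y)⁻¹ * ((n : Y) * t * (n : Y)⁻¹) * (n : Y) = t
          group)
        right_inv := fun t => Subtype.ext (by
          show (n : Y) * ((n : Y)⁻¹ * t * (n : Y)) * (n : Y)⁻¹ = t
          group)
        map_mul' := fun x y => Subtype.ext (by
          show (n : Y) * ((x : Y) * y) * (n : Y)⁻¹ = ((n : Y) * x * (n : Y)⁻¹) * ((n : Y) * y * (n : Y)⁻¹)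
          group) }
    have hφ : ∀ t, t ∈ O ↔ φ t ∈ O := by
      intro t
      rw [hOmem, hOmem]
      have : ((φ t : T) : Y) = n • (t : Y) := rfl
      rw [this]
      constructor
      · rintro ⟨m, hm⟩
        have hm' : m • a = (t : Y) := hm
        exact ⟨n * m, by
          show (n * m) • a = n • (t : Y)
          rw [mul_smul, hm']⟩
      · rintro ⟨m, hm⟩
        have hm' : m • a = n • (t : Y) := hm
        exact ⟨n⁻¹ * m, by
          show (n⁻¹ * m) • a = (t : Y)
          rw [mul_smul, hm', inv_smul_smul]⟩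
    exact congrArg Subtype.val (norm_fixed O φ hφ)
  have hcI : (c : Y) ∉ I := by
    intro hc
    have h1 := norm_coset (I.subgroupOf T) O ⟨a, ha⟩ (by
      intro t ht
      rw [Subgroup.mem_subgroupOf]
      obtain ⟨n, hn⟩ := (hOmem t).1 ht
      have h2 : (t : Y) = (n : Y) * a * (n : Y)⁻¹ := by
        have hn' : n • a = (t : Y) := hn
        rw [← hn', hsm]
      change (t : Y) * a⁻¹ ∈ I
      rw [h2]
      exact hcomm n)
    rw [Subgroup.mem_subgroupOf] at h1
    change (c : Y) * (a ^ O.card)⁻¹ ∈ I at h1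
    have h2 : a ^ O.card ∈ I := by
      have h3 := I.mul_mem (I.inv_mem h1) hc
      simpa using h3
    obtain ⟨k, hk⟩ := (IsPGroup.iff_orderOf.mp hTp) ⟨a, ha⟩
    have hk' : orderOf a = 2 ^ k := by
      rw [← hk]; exact (Subgroup.orderOf_mk a ha).symm
    have hcop : (O.card).Coprime (orderOf a) := by
      rw [hk']
      apply Nat.Coprime.pow_right
      rw [hOcard]
      exact (Nat.Prime.coprime_iff_not_dvd Nat.prime_two).2 hodd |>.symm
    obtain ⟨m, hm⟩ := exists_pow_eq_self_of_coprime hcop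
    apply haI
    rw [← hm]
    exact I.pow_mem h2 m
  obtain ⟨k, hk⟩ := (IsPGroup.iff_orderOf.mp hTp) c
  have hk' : orderOf (c : Y) = 2 ^ k := by
    rw [← hk]; exact (Subgroup.orderOf_mk _ c.2).symm
  have hk0 : k ≠ 0 := by
    rintro rfl
    apply hcI
    have : (c : Y) = 1 := orderOf_eq_one_iff.mp (by simpa using hk')
    rw [this]; exact I.one_mem
  obtain ⟨k', rfl⟩ := Nat.exists_eq_succ_of_ne_zero hk0
  set w : Y := (c : Y) ^ (2 ^ k') with hw
  have hwT : w ∈ T := T.pow_mem c.2 _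
  have hwo : orderOf w = 2 := by
    have h1 := orderOf_pow_orderOf_div (x := (c : Y)) (n := 2) (by rw [hk']; positivity)
      (by rw [hk']; exact Dvd.intro_left _ (by rw [pow_succ]))
    have h2 : orderOf (c : Y) / 2 = 2 ^ k' := by
      rw [hk', Nat.succ_eq_add_one, pow_succ]; simp
    rw [h2] at h1
    exact h1
  have hwfix : ∀ n : N, (n : Y) * w * (n : Y)⁻¹ = w := by
    intro n
    rw [hw, ← conj_pow, hfix n]
  refine ⟨w, hwT, hwo, ?_⟩
  intro y hcm
  set w' := y * w * y⁻¹ with hw'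
  let X : Subgroup Y := Subgroup.centralizer ({w} : Set Y)
  have hTX : T ≤ X := by
    intro t ht
    rw [Subgroup.mem_centralizer_singleton_iff]
    exact hTc t ht w hwT
  have hw'X : w' ∈ X := by
    rw [Subgroup.mem_centralizer_singleton_iff]
    exact hcm.symm.eq
  have hRX : Subgroup.zpowers w' ≤ X := (Subgroup.zpowers_le).2 hw'X
  have hw'o : orderOf w' = 2 := by
    have h := MulEquiv.orderOf_eq (MulAut.conj y) w
    rw [MulAut.conj_apply] at h
    rw [hw', h]; exact hwo
  have hRp : IsPGroup 2 (Subgroup.zpowers w') := by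
    rw [IsPGroup.iff_card]
    exact ⟨1, by rw [Nat.card_zpowers, hw'o]; rfl⟩
  obtain ⟨x, hx, hxr⟩ := exists_conj_le hTp hTi hTX hRX hRp
  have h1 := hxr w' (Subgroup.mem_zpowers w')
  have h2 : (x * y) * w * (x * y)⁻¹ = x * w' * x⁻¹ := by rw [hw']; group
  obtain ⟨n, hn, hn2⟩ := burnside_fusion hTc hTp hTi hwT (x * y) (by rw [h2]; exact h1)
  have hnN : n ∈ N := mem_normalizer_of_forall hn
  have h3 := hwfix ⟨n, hnN⟩
  simp only at h3
  rw [h3, h2] at hn2
  have hxw : x * w = w * x := Subgroup.mem_centralizer_singleton_iff.mp hx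
  have h4 : w' = x⁻¹ * w * x := by rw [← hn2]; group
  rw [h4]
  calc x⁻¹ * w * x = x⁻¹ * (w * x) := by group
    _ = x⁻¹ * (x * w) := by rw [hxw]
    _ = w := by group

end Cfsg.Agent.H05.AI
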