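import Cfsg.Agent.Lib.H05.AutIsoA

/-! Automorphisms of 2-power order fixing an abelian Sylow 2-subgroup elementwise are inner. -/

set_option autoImplicit false
set_option linter.style.haveILetI false
set_option linter.unusedSectionVars false

namespace Cfsg.Agent.H05.AI

open Cfsg

section aux
variable {A : Type*} [Group A] [Finite A]

theorem comm_sup {H K : Subgroup A} (hH : ∀ x ∈ H, ∀ y ∈ H, x * y = y * x)
    (hK : ∀ x ∈ K, ∀ y ∈ K, x * y = y * x) (hHK : ∀ x ∈ H, ∀ y ∈ K, x * y = y * x) :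
    ∀ x ∈ H ⊔ K, ∀ y ∈ H ⊔ K, x * y = y * x := by
  have h1 : H ⊔ K ≤ Subgroup.centralizer (H : Set A) :=
    sup_le (fun x hx => Subgroup.mem_centralizer_iff.2 fun y hy => hH y hy x hx)
      (fun x hx => Subgroup.mem_centralizer_iff.2 fun y hy => hHK y hy x hx)
  have h2 : H ⊔ K ≤ Subgroup.centralizer (K : Set A) :=
    sup_le (fun x hx => Subgroup.mem_centralizer_iff.2 fun y hy => (hHK x hx y hy).symm)
      (fun x hx => Subgroup.mem_centralizer_iff.2 fun y hy => hK y hy x hx)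
  intro x hx y hy
  have h3 : H ⊔ K ≤ Subgroup.centralizer (↑(H ⊔ K) : Set A) :=
    sup_le (fun a ha => Subgroup.mem_centralizer_iff.2 fun b hb =>
        (Subgroup.mem_centralizer_iff.1 (h1 hb) a ha).symm)
      (fun a ha => Subgroup.mem_centralizer_iff.2 fun b hb =>
        (Subgroup.mem_centralizer_iff.1 (h2 hb) a ha).symm)
  exact Subgroup.mem_centralizer_iff.1 (h3 hy) x hx

theorem relIndex_mul_card {X W : Subgroup A} (h : X ≤ W) : X.relIndex W * Nat.card X = Nat.card W := by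
  have h1 := (X.subgroupOf W).index_mul_card
  have h2 : Nat.card (X.subgroupOf W) = Nat.card X :=
    Nat.card_congr (X.subgroupOfEquivOfLe h).toEquiv
  rw [h2] at h1
  exact h1

theorem relIndex_sup_mul (K H : Subgroup A) [K.Normal] :
    H.relIndex (K ⊔ H) * Nat.card (K ⊓ H : Subgroup A) = Nat.card K := by
  have h1 : K.relIndex (K ⊔ H) = K.relIndex H := Subgroup.relIndex_sup_left H K
  have h2 : (K ⊓ H).relIndex H = K.relIndex H := Subgroup.inf_relIndex_right K H
  have h3 := relIndex_mul_card (le_sup_left : K ≤ K ⊔ H)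
  have h4 := relIndex_mul_card (le_sup_right : H ≤ K ⊔ H)
  have h5 := relIndex_mul_card (inf_le_right : K ⊓ H ≤ H)
  rw [h2] at h5
  rw [h1] at h3
  have hpos : 0 < K.relIndex H := by
    rcases Nat.eq_zero_or_pos (K.relIndex H) with h0 | h0
    · exfalso
      rw [h0] at h3
      have := Nat.card_pos (α := ↥(K ⊔ H))
      omega
    · exact h0
  have h6 : K.relIndex H * (H.relIndex (K ⊔ H) * Nat.card (K ⊓ H : Subgroup A))
      = K.relIndex H * Nat.card K := by
    calc K.relIndex H * (H.relIndex (K ⊔ H) * Nat.card (K ⊓ H : Subgroup A))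
        = H.relIndex (K ⊔ H) * (K.relIndex H * Nat.card (K ⊓ H : Subgroup A)) := by ring
      _ = H.relIndex (K ⊔ H) * Nat.card H := by rw [h5]
      _ = Nat.card ↥(K ⊔ H) := h4
      _ = K.relIndex H * Nat.card K := h3.symm
  exact Nat.eq_of_mul_eq_mul_left hpos h6

end aux

variable {G : Type*} [Group G] [Finite G]

theorem conj_conj (φ : MulAut G) (g : G) : φ * MulAut.conj g * φ⁻¹ = MulAut.conj (φ g) := by
  ext x
  simp [MulAut.mul_apply, MulAut.conj_apply, map_mul, map_inv]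

theorem inner_of_fix (hZ : Subgroup.center G = ⊥) (hcore : Cfsg.pPrimeCore 2 G = ⊥) (P : Sylow 2 G)
    (hab : IsMulCommutative (P : Subgroup G))
    (α : MulAut G) (h2 : ∃ j : ℕ, orderOf α = 2 ^ j) (hfix : ∀ x ∈ (P : Subgroup G), α x = x) :
    ∃ g : G, ∀ x : G, α x = g * x * g⁻¹ := by
  classical
  by_contra hno
  let conjH : G →* MulAut G := MulAut.conj
  let I₀ : Subgroup (MulAut G) := conjH.range
  haveI hI₀n : I₀.Normal := ⟨by
    rintro _ ⟨g, rfl⟩ φ
    exact ⟨φ g, (conj_conj φ g).symm⟩⟩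
  have hαI : α ∉ I₀ := by
    rintro ⟨g, hg⟩
    exact hno ⟨g, fun x => by rw [← hg]; rfl⟩
  have hinj : Function.Injective conjH := by
    rw [injective_iff_map_eq_one]
    intro g hg
    have hgc : g ∈ Subgroup.center G := by
      rw [Subgroup.mem_center_iff]
      intro x
      have h3 : (MulAut.conj g) x = x := by
        have : conjH g = 1 := hg
        change (conjH g) x = x
        rw [this]; rfl
      rw [MulAut.conj_apply] at h3
      calc x * g = (g * x * g⁻¹) * g := by rw [h3]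
        _ = g * x := by group
    rw [hZ] at hgc
    exact (Subgroup.mem_bot).1 hgc
  let Z : Subgroup (MulAut G) := Subgroup.zpowers α
  let Ph : Subgroup (MulAut G) := (P : Subgroup G).map conjH
  let T₀ : Subgroup (MulAut G) := Ph ⊔ Z
  let Y₀ : Subgroup (MulAut G) := I₀ ⊔ T₀
  have hPhI : Ph ≤ I₀ := Subgroup.map_le_range _ _
  have hPhc : ∀ x ∈ Ph, ∀ y ∈ Ph, x * y = y * x := by
    rintro _ ⟨p, hp, rfl⟩ _ ⟨q, hq, rfl⟩
    have h3 : p * q = q * p :=
      congrArg Subtype.val (hab.is_comm.comm ⟨p, hp⟩ ⟨q, hq⟩)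
    rw [← map_mul, ← map_mul, h3]
  have hαc : ∀ p ∈ (P : Subgroup G), conjH p * α = α * conjH p := by
    intro p hp
    have h3 := conj_conj α p
    rw [hfix p hp] at h3
    change MulAut.conj p * α = α * MulAut.conj p
    calc MulAut.conj p * α = (α * MulAut.conj p * α⁻¹) * α := by rw [h3]
      _ = α * MulAut.conj p := by group
  have hPZ : ∀ x ∈ Ph, ∀ y ∈ Z, x * y = y * x := by
    rintro _ ⟨p, hp, rfl⟩ y hy
    obtain ⟨k, rfl⟩ := Subgroup.mem_zpowers_iff.1 hy
    exact ((show Commute (conjH p) α from hαc p hp).zpow_right k).eq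
  have hZZ : ∀ x ∈ Z, ∀ y ∈ Z, x * y = y * x := by
    intro x hx y hy
    obtain ⟨k, rfl⟩ := Subgroup.mem_zpowers_iff.1 hx
    obtain ⟨l, rfl⟩ := Subgroup.mem_zpowers_iff.1 hy
    exact (Commute.zpow_zpow_self α k l).eq
  have hT₀c : ∀ x ∈ T₀, ∀ y ∈ T₀, x * y = y * x := comm_sup hPhc hZZ hPZ
  have hαT : α ∈ T₀ := Subgroup.mem_sup_right (Subgroup.mem_zpowers α)
  have hPhp : IsPGroup 2 Ph := P.isPGroup'.map _
  have hZp : IsPGroup 2 Z := by
    rw [IsPGroup.iff_card]
    obtain ⟨j, hj⟩ := h2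
    exact ⟨j, by rw [Nat.card_zpowers, hj]⟩
  have hT₀p : IsPGroup 2 T₀ := by
    refine IsPGroup.to_sup_of_normal_right' hPhp hZp ?_
    intro x hx
    exact Subgroup.centralizer_le_normalizer _
      (Subgroup.mem_centralizer_iff.2 fun y hy => (hPZ x hx y hy).symm)
  have hTY : T₀ ≤ Y₀ := le_sup_right
  let Y := ↥Y₀
  let I : Subgroup Y := I₀.subgroupOf Y₀
  let T : Subgroup Y := T₀.subgroupOf Y₀
  let a : Y := ⟨α, hTY hαT⟩
  have hTc : ∀ x ∈ T, ∀ y ∈ T, x * y = y * x := fun x hx y hy =>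
    Subtype.ext (hT₀c x (Subgroup.mem_subgroupOf.1 hx) y (Subgroup.mem_subgroupOf.1 hy))
  have hTp : IsPGroup 2 T := hT₀p.of_equiv (T₀.subgroupOfEquivOfLe hTY).symm
  have hTi : ¬ 2 ∣ T.index := by
    intro h2T
    have h3 : T₀.relIndex Y₀ * Nat.card (I₀ ⊓ T₀ : Subgroup (MulAut G)) = Nat.card I₀ :=
      relIndex_sup_mul I₀ T₀
    have h4 : Nat.card I₀ = Nat.card G :=
      (Nat.card_congr (MonoidHom.ofInjective hinj).toEquiv).symm
    have h5 : Nat.card Ph = Nat.card (P : Subgroup G) :=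
      Subgroup.card_map_of_injective hinj
    have h6 : Nat.card Ph ∣ Nat.card (I₀ ⊓ T₀ : Subgroup (MulAut G)) :=
      Subgroup.card_dvd_of_le (le_inf hPhI le_sup_left)
    have h7 : (P : Subgroup G).index * Nat.card (P : Subgroup G) = Nat.card G :=
      (P : Subgroup G).index_mul_card
    have h8 : 2 * Nat.card (P : Subgroup G) ∣ (P : Subgroup G).index * Nat.card (P : Subgroup G) := by
      rw [h7, ← h4, ← h3, ← h5]
      exact mul_dvd_mul h2T h6
    have h9 : 2 ∣ (P : Subgroup G).index :=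
      Nat.dvd_of_mul_dvd_mul_right (Nat.card_pos) h8
    exact P.not_dvd_index h9
  have haT : a ∈ T := Subgroup.mem_subgroupOf.2 hαT
  have haI : a ∉ I := fun h => hαI (Subgroup.mem_subgroupOf.1 h)
  have hcomm0 : ∀ y ∈ Y₀, y * α * y⁻¹ * α⁻¹ ∈ I₀ := by
    let S' : Subgroup (MulAut G) :=
      (Subgroup.centralizer ({(QuotientGroup.mk' I₀) α} : Set (MulAut G ⧸ I₀))).comap (QuotientGroup.mk' I₀)
    have hS : ∀ y, y ∈ S' → y * α * y⁻¹ * α⁻¹ ∈ I₀ := by
      intro y hy
      have h3 : (QuotientGroup.mk' I₀) y ∈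
          Subgroup.centralizer ({(QuotientGroup.mk' I₀) α} : Set (MulAut G ⧸ I₀)) := hy
      rw [Subgroup.mem_centralizer_singleton_iff, ← map_mul, ← map_mul] at h3
      have h4 := (QuotientGroup.eq (s := I₀)).1 h3
      have h6 : y * α * y⁻¹ * α⁻¹ = (α * y) * ((y * α)⁻¹ * (α * y))⁻¹ * (α * y)⁻¹ := by
        group
      rw [h6]
      exact hI₀n.conj_mem _ (I₀.inv_mem h4) _
    have hle : Y₀ ≤ S' := by
      refine sup_le ?_ ?_
      · intro y hy
        show (QuotientGroup.mk' I₀) y ∈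
          Subgroup.centralizer ({(QuotientGroup.mk' I₀) α} : Set (MulAut G ⧸ I₀))
        have h1 : (QuotientGroup.mk' I₀) y = 1 := (QuotientGroup.eq_one_iff y).2 hy
        rw [h1]
        exact Subgroup.one_mem _
      · intro y hy
        show (QuotientGroup.mk' I₀) y ∈
          Subgroup.centralizer ({(QuotientGroup.mk' I₀) α} : Set (MulAut G ⧸ I₀))
        rw [Subgroup.mem_centralizer_singleton_iff, ← map_mul, ← map_mul, hT₀c y hy α hαT]
    intro y hy
    exact hS y (hle hy)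
  have hcomm : ∀ y : Y, y * a * y⁻¹ * a⁻¹ ∈ I := by
    intro y
    rw [Subgroup.mem_subgroupOf]
    exact hcomm0 y y.2
  obtain ⟨w, -, hiso⟩ := exists_isolated I T hTc hTp hTi a haT haI hcomm
  have hz := Cfsg.Agent.H15.zstar_theorem Y w hiso
  let ι : G →* Y := MonoidHom.codRestrict conjH Y₀ (fun x => Subgroup.mem_sup_left ⟨x, rfl⟩)
  have hιinj : Function.Injective ι := by
    intro x y hxy
    exact hinj (congrArg Subtype.val hxy)
  let R : Subgroup G := (oddCore Y).comap ι
  have hRbot : R = ⊥ := by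
    have hRn : R.Normal := by
      haveI : (oddCore Y).Normal := Cfsg.Agent.H05.pp_normal (G := Y) 2
      exact Subgroup.Normal.comap inferInstance ι
    have hRc : (Nat.card R).Coprime 2 :=
      Nat.Coprime.coprime_dvd_left (Subgroup.card_comap_dvd_of_injective _ _ hιinj)
        Cfsg.Agent.H15.card_oddCore_coprime
    have h3 : R ≤ Cfsg.pPrimeCore 2 G := le_sSup ⟨hRn, hRc⟩
    rw [hcore] at h3
    exact le_bot_iff.1 h3
  have hwfix : ∀ g : G, (w : MulAut G) g = g := by
    intro g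
    have h3 := hz (ι g)
    have h4 : w * ι g * w⁻¹ * (ι g)⁻¹ = ι ((w : MulAut G) g * g⁻¹) := by
      apply Subtype.ext
      have h5 := conj_conj (w : MulAut G) g
      change (w : MulAut G) * conjH g * (w : MulAut G)⁻¹ * (conjH g)⁻¹ = conjH ((w : MulAut G) g * g⁻¹)
      rw [map_mul, map_inv]
      change (w : MulAut G) * MulAut.conj g * (w : MulAut G)⁻¹ * (MulAut.conj g)⁻¹ =
        MulAut.conj ((w : MulAut G) g) * (MulAut.conj g)⁻¹
      rw [h5]
    rw [h4] at h3
    have h6 : (w : MulAut G) g * g⁻¹ ∈ R := h3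
    rw [hRbot, Subgroup.mem_bot] at h6
    exact mul_inv_eq_one.1 h6
  have hw1 : w = 1 := by
    apply Subtype.ext
    ext g
    exact hwfix g
  have := hiso.1
  rw [hw1, orderOf_one] at this
  omega

end Cfsg.Agent.H05.AI
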