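import Cfsg.Agent.Lib.H05.Hig5d
import Cfsg.Agent.S1141
import Cfsg.Agent.S1248

/-! The Sylow `2`-subgroup of `U₃(4)` is in the class. -/

set_option autoImplicit false
set_option linter.unusedSectionVars false

namespace Cfsg.Agent.H05.Hig

open Subgroup
open Cfsg.Agent.S3315 Cfsg.Agent.S1141
open Cfsg.Agent

theorem mod_class {T : Type*} [Group T] [Finite T] {F : Type*} [Field F] [Fintype F] [CharP F 2]
    (hF : Fintype.card F = 4 ^ 2) (hT : IsPGroup 2 T) (M : Mod T F 4) :
    ∃ (E : Subgroup T) (α : T ≃* T), Setup E α ∧ (∀ x, α (α (α x)) = x) ∧ (∀ x, x * x ∈ E) ∧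
      Nat.card T = 64 := by
  classical
  have h2 : ∀ x : F, x + x = 0 := fun x => CharTwo.add_self_eq_zero x
  obtain ⟨l, hl1, hl3⟩ : ∃ l : F, l ≠ 1 ∧ l ^ 3 = 1 := by
    have hc : Nat.card Fˣ = 15 := by
      rw [Nat.card_eq_fintype_card, Fintype.card_units, hF]
      norm_num
    haveI : Fact (Nat.Prime 3) := ⟨Nat.prime_three⟩
    obtain ⟨u, hu⟩ := exists_prime_orderOf_dvd_card' 3 (by rw [hc]; norm_num : 3 ∣ Nat.card Fˣ)
    refine ⟨u, ?_, ?_⟩
    · intro h1
      have h4 : u = 1 := Units.ext h1
      rw [h4, orderOf_one] at hu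
      omega
    · have h4 := pow_orderOf_eq_one u
      rw [hu] at h4
      have h5 := congrArg Units.val h4
      simpa using h5
  have hl2 : l ^ 2 ≠ 1 := by
    intro h4
    apply hl1
    have h5 : l ^ 3 = l ^ 2 * l := by ring
    rw [h5, h4, one_mul] at hl3
    exact hl3
  have hl4 : l ^ 4 = l := by
    calc l ^ 4 = l ^ 3 * l := by ring
      _ = l := by rw [hl3, one_mul]
  have hl24 : (l ^ 2) ^ 4 = l ^ 2 := by
    calc (l ^ 2) ^ 4 = (l ^ 4) ^ 2 := by ring
      _ = l ^ 2 := by rw [hl4]
  have hpa1 : M.pa 1 = 0 := M.pa_one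
  have hps1 : M.ps 1 = 0 := by
    have h4 := M.ps_mul 1 1
    rw [mul_one, hpa1] at h4
    have h5 := h2 (M.ps 1)
    have h6 : (0 : F) ^ 4 * 0 = 0 := by ring
    rw [h6, add_zero, h5] at h4
    exact h4
  let α : T ≃* T :=
    { toFun := act hF M l hl4
      invFun := act hF M (l ^ 2) hl24
      left_inv := fun g => by
        apply M.ext'
        · rw [act_pa, act_pa]
          linear_combination (M.pa g) * hl3
        · rw [act_ps, act_ps]
          linear_combination (M.ps g) * (l ^ 3 + 1) * hl3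
      right_inv := fun g => by
        apply M.ext'
        · rw [act_pa, act_pa]
          linear_combination (M.pa g) * hl3
        · rw [act_ps, act_ps]
          linear_combination (M.ps g) * (l ^ 3 + 1) * hl3
      map_mul' := act_mul hF M l hl4 }
  have hαpa : ∀ g, M.pa (α g) = l * M.pa g := act_pa hF M l hl4
  have hαps : ∀ g, M.ps (α g) = l ^ 2 * M.ps g := act_ps hF M l hl4
  have hcent : ∀ g : T, g ∈ center T ↔ M.pa g = 0 := by
    intro g
    constructor
    · intro hg
      exact M.pa_of_central hF h2 g (fun y => (Subgroup.mem_center_iff.1 hg y).symm)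
    · intro hg
      exact Subgroup.mem_center_iff.2 (fun y => (M.central_of_pa (by norm_num) g hg y).symm)
  have hKlein := (S1248.abs_props hF M).2.1
  have hS : Setup (center T) α := {
    inv_iff := by
      intro x
      rw [hcent]
      constructor
      · intro h4
        have h5 := congrArg M.ps h4
        rw [M.ps_mul, hps1, h2, zero_add] at h5
        have h6 : (M.pa x) ^ 5 = 0 := by
          rw [pow_succ]
          exact h5
        exact pow_eq_zero_iff (by norm_num) |>.1 h6
      · intro h4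
        apply M.ext'
        · rw [M.pa_mul, h4, add_zero, hpa1]
        · rw [M.ps_mul, h4, h2, hps1]
          ring
    central := fun e he x => (Subgroup.mem_center_iff.1 he x).symm
    card4 := hKlein.card_four
    fpf := by
      intro x hx
      have h4 : M.pa x = 0 := by
        have h5 := hαpa x
        rw [hx] at h5
        have h6 : (l - 1) * M.pa x = 0 := by linear_combination -h5
        exact (mul_eq_zero.1 h6).resolve_left (sub_ne_zero.2 hl1)
      have h5 : M.ps x = 0 := by
        have h6 := hαps x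
        rw [hx] at h6
        have h7 : (l ^ 2 - 1) * M.ps x = 0 := by linear_combination -h6
        exact (mul_eq_zero.1 h7).resolve_left (sub_ne_zero.2 hl2)
      apply M.ext'
      · rw [h4, hpa1]
      · rw [h5, hps1]
    p2 := hT }
  refine ⟨center T, α, hS, ?_, ?_, ?_⟩
  · intro x
    apply M.ext'
    · rw [hαpa, hαpa, hαpa]
      linear_combination (M.pa x) * hl3
    · rw [hαps, hαps, hαps]
      linear_combination (M.ps x) * (l ^ 3 + 1) * hl3
  · intro x
    rw [hcent, M.pa_mul, h2]
  · rw [M.card_eq hF]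
    norm_num

theorem exists_mod {F : Type*} [Field F] [Fintype F] [CharP F 2] (hF' : Fintype.card F = 4 ^ 2)
    (S : Sylow 2 (Cfsg.PSU 3 F 4)) : Nonempty (Mod ↥(S : Subgroup (Cfsg.PSU 3 F 4)) F 4) := by
  classical
  haveI : Fact (Nat.Prime 2) := ⟨Nat.prime_two⟩
  have hcen : Subgroup.center (Cfsg.SU 3 F 4) = ⊥ := by
    have h1 := Lead.card_center_SU (n := 3) (F := F) (q := 4) hF' (by norm_num)
    rw [show Nat.gcd 3 (4 + 1) = 1 by norm_num] at h1
    exact Subgroup.card_eq_one.1 h1
  let ι : Cfsg.PSU 3 F 4 ≃* ↥(Cfsg.SU 3 F 4) :=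
    (QuotientGroup.quotientMulEquivOfEq hcen).trans QuotientGroup.quotientBot
  have hcardG : Nat.card ↥(Cfsg.SU 3 F 4) = 2 ^ 6 * 975 := by
    have h1 := Lead.card_GU_eq hF' (n := 3) (by norm_num)
    have h2 := Lead.card_GU (n := 3) hF'
    rw [h1] at h2
    generalize Nat.card ↥(Cfsg.SU 3 F 4) = k at h2 ⊢
    simp only [Finset.prod_range_succ, Finset.prod_range_zero] at h2
    norm_num at h2
    omega
  have hcardP : Nat.card (Cfsg.PSU 3 F 4) = 2 ^ 6 * 975 := by
    rw [Nat.card_congr ι.toEquiv, hcardG]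
  have hfact : (Nat.card (Cfsg.PSU 3 F 4)).factorization 2 = 6 := by
    rw [hcardP, Nat.factorization_mul (by norm_num) (by norm_num), Finsupp.add_apply,
      Nat.factorization_eq_zero_of_not_dvd (by norm_num : ¬ 2 ∣ 975), add_zero,
      Nat.Prime.factorization_pow Nat.prime_two]
    simp
  let P₁ : Subgroup (Cfsg.PSU 3 F 4) := (P0 (q := 4) hF').map ι.symm.toMonoidHom
  have hP₁ : Nat.card P₁ = 2 ^ (Nat.card (Cfsg.PSU 3 F 4)).factorization 2 := by
    rw [hfact, Subgroup.card_map_of_injective ι.symm.injective, (modP0 hF').card_eq hF']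
    norm_num
  let Q0 : Sylow 2 (Cfsg.PSU 3 F 4) := Sylow.ofCard P₁ hP₁
  let e₂ : ↥P₁ ≃* ↥(P0 (q := 4) hF') := (Subgroup.equivMapOfInjective _ _ ι.symm.injective).symm
  let φ : ↥(S : Subgroup (Cfsg.PSU 3 F 4)) ≃* ↥(P0 (q := 4) hF') := (Sylow.equiv S Q0).trans e₂
  let M₀ := modP0 (q := 4) hF'
  exact ⟨{ pa := fun g => M₀.pa (φ g)
           ps := fun g => M₀.ps (φ g)
           ext' := fun g h h1 h3 => φ.injective (M₀.ext' _ _ h1 h3)
           pa_mul := fun g h => by
             show M₀.pa (φ (g * h)) = _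
             rw [map_mul, M₀.pa_mul]
           ps_mul := fun g h => by
             show M₀.ps (φ (g * h)) = _
             rw [map_mul, M₀.ps_mul]
           rel := fun g => M₀.rel _
           surj := fun a s h => by
             obtain ⟨g, h1, h3⟩ := M₀.surj a s h
             exact ⟨φ.symm g, by simpa using h1, by simpa using h3⟩ }⟩

end Cfsg.Agent.H05.Hig
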