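import Mathlib
import Cfsg.Prelude.Def_LieRecognition
import Cfsg.Prelude.Def_Involutions

/-!
# Actions in which every involution has exactly one fixed point
-/

set_option autoImplicit false
set_option linter.style.haveILetI false
set_option linter.unusedSectionVars false

namespace Cfsg.Agent.H05

open Subgroup Cfsg MulAction

section onefix
variable {G Ω : Type*} [Group G] [MulAction G Ω]

/-- Every involution has exactly one fixed point. -/
def OneFix (G Ω : Type*) [Group G] [MulAction G Ω] : Prop :=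
  ∀ s : G, s * s = 1 → s ≠ 1 → ∃! x : Ω, s • x = x

theorem OneFix.eq (hF : OneFix G Ω) {s : G} (h1 : s * s = 1) (h2 : s ≠ 1) {x y : Ω}
    (hx : s • x = x) (hy : s • y = y) : x = y := (hF s h1 h2).unique hx hy

theorem OneFix.comm_fix (hF : OneFix G Ω) {s g : G} (h1 : s * s = 1) (h2 : s ≠ 1) {x : Ω}
    (hx : s • x = x) (hc : g * s = s * g) : g • x = x := by
  apply hF.eq h1 h2 _ hx
  rw [smul_smul, ← hc, mul_smul, hx]

theorem inv_eq_self_of_mul {s : G} (h : s * s = 1) : s⁻¹ = s := inv_eq_of_mul_eq_one_left h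

theorem mul_inv_of_inv {s u : G} (hs : s * s = 1) (hu : u * u = 1) : (s * u)⁻¹ = u * s := by
  rw [mul_inv_rev, inv_eq_self_of_mul hs, inv_eq_self_of_mul hu]

theorem s_pow_s {s u : G} (hs : s * s = 1) (hu : u * u = 1) (n : ℕ) :
    s * (s * u) ^ n * s = ((s * u) ^ n)⁻¹ := by
  have h1 : s * (s * u) ^ n * s⁻¹ = (s * (s * u) * s⁻¹) ^ n := (conj_pow).symm
  rw [inv_eq_self_of_mul hs] at h1
  rw [h1, ← inv_pow, mul_inv_of_inv hs hu]
  congr 1
  rw [← mul_assoc, hs, one_mul]

theorem u_pow_u {s u : G} (hs : s * s = 1) (hu : u * u = 1) (n : ℕ) :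
    u * (s * u) ^ n * u = ((s * u) ^ n)⁻¹ := by
  have h1 : u * (s * u) ^ n * u⁻¹ = (u * (s * u) * u⁻¹) ^ n := (conj_pow).symm
  rw [inv_eq_self_of_mul hu] at h1
  rw [h1, ← inv_pow, mul_inv_of_inv hs hu]
  congr 1
  rw [mul_assoc, mul_assoc, hu, mul_one]

variable [Finite G]

/-- The product of two involutions with distinct fixed points has odd order. -/
theorem OneFix.odd_mul (hF : OneFix G Ω) {s u : G} (hs : s * s = 1) (hs1 : s ≠ 1) (hu : u * u = 1)
    (hu1 : u ≠ 1) {x y : Ω} (hx : s • x = x) (hy : u • y = y) (hxy : x ≠ y) :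
    Odd (orderOf (s * u)) := by
  by_contra hodd
  rw [Nat.not_odd_iff_even] at hodd
  obtain ⟨m, hm⟩ := hodd
  have hpos : 0 < orderOf (s * u) := orderOf_pos _
  have hm0 : m < orderOf (s * u) := by omega
  have hm1 : 0 < m := by omega
  set e := (s * u) ^ m with he
  have he1 : e ≠ 1 := pow_ne_one_of_lt_orderOf hm1.ne' hm0
  have hee : e * e = 1 := by
    rw [he, ← pow_add, ← hm, pow_orderOf_eq_one]
  have heinv : e⁻¹ = e := inv_eq_self_of_mul hee
  have h1 : s * e = e * s := by
    have := s_pow_s hs hu m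
    rw [← he, heinv] at this
    calc s * e = s * e * s * s := by rw [mul_assoc (s * e), hs, mul_one]
      _ = e * s := by rw [this]
  have h2 : u * e = e * u := by
    have := u_pow_u hs hu m
    rw [← he, heinv] at this
    calc u * e = u * e * u * u := by rw [mul_assoc (u * e), hu, mul_one]
      _ = e * u := by rw [this]
  obtain ⟨z, hz, -⟩ := hF e hee he1
  have hz1 : s • z = z := hF.comm_fix hee he1 hz h1
  have hz2 : u • z = z := hF.comm_fix hee he1 hz h2
  exact hxy ((hF.eq hs hs1 hx hz1).trans (hF.eq hu hu1 hz2 hy))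

/-- The midpoint of two involutions with distinct fixed points. -/
theorem OneFix.exists_mid (hF : OneFix G Ω) {s u : G} (hs : s * s = 1) (hs1 : s ≠ 1) (hu : u * u = 1)
    (hu1 : u ≠ 1) {x y : Ω} (hx : s • x = x) (hy : u • y = y) (hxy : x ≠ y) :
    ∃ k : ℕ, ((s * u) ^ k * s) * ((s * u) ^ k * s) = 1 ∧ ((s * u) ^ k * s) * s * ((s * u) ^ k * s) = u := by
  obtain ⟨k, hk⟩ := hF.odd_mul hs hs1 hu hu1 hx hy hxy
  refine ⟨k, ?_, ?_⟩
  · have := s_pow_s hs hu k
    calc ((s * u) ^ k * s) * ((s * u) ^ k * s) = (s * u) ^ k * (s * (s * u) ^ k * s) := by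
          simp only [mul_assoc]
      _ = 1 := by rw [this, mul_inv_cancel]
  · have h1 : (s * u) ^ (2 * k + 1) = 1 := by rw [← hk, pow_orderOf_eq_one]
    have h2 : (s * u) ^ (2 * k) = u * s := by
      rw [← mul_inv_of_inv hs hu]
      rw [pow_succ] at h1
      exact eq_inv_of_mul_eq_one_left h1
    calc ((s * u) ^ k * s) * s * ((s * u) ^ k * s) = (s * u) ^ k * (s * s) * (s * u) ^ k * s := by
          simp only [mul_assoc]
      _ = (s * u) ^ (2 * k) * s := by rw [hs, mul_one, two_mul, pow_add]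
      _ = u := by rw [h2, mul_assoc, hs, mul_one]

/-- The midpoint is unique. -/
theorem OneFix.mid_unique (hF : OneFix G Ω) {s u : G} (hs : s * s = 1) (hs1 : s ≠ 1) (hu : u * u = 1)
    (hu1 : u ≠ 1) {x y : Ω} (hx : s • x = x) (hy : u • y = y) (hxy : x ≠ y) {v w : G}
    (hv : v * v = 1) (hvs : v * s * v = u) (hw : w * w = 1) (hws : w * s * w = u) : v = w := by
  -- it suffices to compare with the explicit midpoint
  have key : ∀ v : G, v * v = 1 → v * s * v = u → ∀ k : ℕ, ((s * u) ^ k * s) * ((s * u) ^ k * s) = 1 →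
      ((s * u) ^ k * s) * s * ((s * u) ^ k * s) = u → v = (s * u) ^ k * s := by
    intro v hv hvs k hw₀ hw₀s
    set w₀ := (s * u) ^ k * s with hw₀d
    set d := v * w₀ with hd
    have hvu : v * u * v = s := by
      rw [← hvs]
      calc v * (v * s * v) * v = (v * v) * s * (v * v) := by simp only [mul_assoc]
        _ = s := by rw [hv, one_mul, mul_one]
    have hw₀u : w₀ * u * w₀ = s := by
      rw [← hw₀s]
      calc w₀ * (w₀ * s * w₀) * w₀ = (w₀ * w₀) * s * (w₀ * w₀) := by simp only [mul_assoc]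
        _ = s := by rw [hw₀, one_mul, mul_one]
    have hds : d * s = s * d := by
      calc d * s = v * (w₀ * s * w₀) * w₀ := by rw [hd]; simp only [mul_assoc, hw₀, mul_one]
        _ = v * u * w₀ := by rw [hw₀s]
        _ = (v * u * v) * (v * w₀) := by rw [show v * u * v * (v * w₀) = v * u * (v * v) * w₀ by simp only [mul_assoc], hv, mul_one]
        _ = s * d := by rw [hvu]
    have hdu : d * u = u * d := by
      calc d * u = v * (w₀ * u * w₀) * w₀ := by rw [hd]; simp only [mul_assoc, hw₀, mul_one]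
        _ = v * s * w₀ := by rw [hw₀u]
        _ = (v * s * v) * (v * w₀) := by rw [show v * s * v * (v * w₀) = v * s * (v * v) * w₀ by simp only [mul_assoc], hv, mul_one]
        _ = u * d := by rw [hvs]
    have hdc : Commute d ((s * u) ^ k) := Commute.pow_right ((Commute.mul_right hds hdu)) k
    have hdw₀ : d * w₀ = w₀ * d := by
      rw [hw₀d]
      exact (Commute.mul_right hdc hds)
    have hdd : d * d = 1 := by
      have h1 : d * w₀ = v := by rw [hd, mul_assoc, hw₀, mul_one]
      rw [hdw₀] at h1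
      calc d * d = d * (v * w₀) := by rw [hd]
        _ = d * ((w₀ * d) * w₀) := by rw [h1]
        _ = (d * w₀) * (d * w₀) := by simp only [mul_assoc]
        _ = v * v := by rw [hd, mul_assoc v w₀ w₀, hw₀, mul_one]
        _ = 1 := hv
    by_cases hd1 : d = 1
    · calc v = d * w₀ := by rw [hd, mul_assoc, hw₀, mul_one]
        _ = w₀ := by rw [hd1, one_mul]
    · exfalso
      obtain ⟨z, hz, -⟩ := hF d hdd hd1
      have hz1 : s • z = z := hF.comm_fix hdd hd1 hz hds.symm
      have hz2 : u • z = z := hF.comm_fix hdd hd1 hz hdu.symm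
      exact hxy ((hF.eq hs hs1 hx hz1).trans (hF.eq hu hu1 hz2 hy))
  obtain ⟨k, h1, h2⟩ := hF.exists_mid hs hs1 hu hu1 hx hy hxy
  rw [key v hv hvs k h1 h2, key w hw hws k h1 h2]

/-- A conjugating involution maps the fixed point to the fixed point. -/
theorem OneFix.mid_smul (hF : OneFix G Ω) {s u v : G} (hu : u * u = 1) (hu1 : u ≠ 1) {x y : Ω}
    (hx : s • x = x) (hy : u • y = y) (hv : v * v = 1) (hvs : v * s * v = u) : v • x = y := by
  apply hF.eq hu hu1 _ hy
  rw [← hvs, mul_smul, mul_smul, smul_smul v v, hv, one_smul, hx]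

end onefix

section inverted
variable {G Ω : Type*} [Group G] [MulAction G Ω] [Finite G]

theorem mem_invo {a : Ω} {s : G} : s ∈ involutionsIn (stabilizer G a : Set G) ↔ s • a = a ∧ s ≠ 1 ∧ s * s = 1 := by
  simp [involutionsIn, mem_stabilizer_iff]

theorem mem_inv {a : Ω} {t k : G} : k ∈ invertedBy (stabilizer G a ⊓ stabilizer G (t • a)) t ↔
    k • a = a ∧ k • (t • a) = t • a ∧ t * k * t⁻¹ = k⁻¹ := by
  simp [invertedBy, mem_stabilizer_iff, and_assoc]

theorem invo_conj {a : Ω} {k s : G} (hk : k • a = a) (hs : s ∈ involutionsIn (stabilizer G a : Set G)) :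
    k * s * k⁻¹ ∈ involutionsIn (stabilizer G a : Set G) := by
  rw [mem_invo] at hs ⊢
  obtain ⟨h1, h2, h3⟩ := hs
  refine ⟨?_, ?_, ?_⟩
  · rw [mul_smul, mul_smul]
    have : k⁻¹ • a = a := by rw [inv_smul_eq_iff, hk]
    rw [this, h1, hk]
  · intro h
    apply h2
    have : s = k⁻¹ * (k * s * k⁻¹) * k := by group
    rw [this, h]
    group
  · calc k * s * k⁻¹ * (k * s * k⁻¹) = k * (s * s) * k⁻¹ := by group
      _ = 1 := by rw [h3]; group

/-- Regularity of the set of inverted elements on the involutions of a point stabilizer: existence. -/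
theorem OneFix.K_exists (hF : OneFix G Ω) {a : Ω} {t : G} (ht : t * t = 1) (hta : t • a ≠ a) {s s' : G}
    (hs : s ∈ involutionsIn (stabilizer G a : Set G)) (hs' : s' ∈ involutionsIn (stabilizer G a : Set G)) :
    ∃ k ∈ invertedBy (stabilizer G a ⊓ stabilizer G (t • a)) t, k⁻¹ * s * k = s' := by
  rw [mem_invo] at hs hs'
  obtain ⟨h1, h2, h3⟩ := hs
  obtain ⟨h1', h2', h3'⟩ := hs'
  have hinv : t⁻¹ = t := inv_eq_self_of_mul ht
  set u := t * s' * t with hu
  have huu : u * u = 1 := by
    calc u * u = t * s' * (t * t) * s' * t := by rw [hu]; simp only [mul_assoc]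
      _ = t * (s' * s') * t := by rw [ht, mul_one]; simp only [mul_assoc]
      _ = 1 := by rw [h3', mul_one, ht]
  have hu1 : u ≠ 1 := by
    intro h
    apply h2'
    have : s' = t * u * t := by
      rw [hu]
      calc s' = (t * t) * s' * (t * t) := by rw [ht, one_mul, mul_one]
        _ = t * (t * s' * t) * t := by simp only [mul_assoc]
    rw [this, h, mul_one, ht]
  have huf : u • (t • a) = t • a := by
    rw [hu, mul_smul, mul_smul, smul_smul t t, ht, one_smul, h1']
  have hne : a ≠ t • a := fun h => hta h.symm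
  obtain ⟨k, hw, hws⟩ := hF.exists_mid h3 h2 huu hu1 h1 huf hne
  set w := (s * u) ^ k * s with hwd
  have hwa : w • a = t • a := hF.mid_smul huu hu1 h1 huf hw hws
  have hwb : w • (t • a) = a := by rw [← hwa, smul_smul, hw, one_smul]
  refine ⟨w * t, ?_, ?_⟩
  · rw [mem_inv]
    refine ⟨?_, ?_, ?_⟩
    · rw [mul_smul, hwb]
    · rw [mul_smul, smul_smul t t, ht, one_smul, hwa]
    · rw [hinv, mul_inv_rev, hinv, inv_eq_self_of_mul hw]
      simp only [mul_assoc, ht, mul_one]
  · rw [mul_inv_rev, hinv, inv_eq_self_of_mul hw]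
    calc t * w * s * (w * t) = t * (w * s * w) * t := by simp only [mul_assoc]
      _ = t * u * t := by rw [hws]
      _ = (t * t) * s' * (t * t) := by rw [hu]; simp only [mul_assoc]
      _ = s' := by rw [ht, one_mul, mul_one]

/-- Regularity: uniqueness. -/
theorem OneFix.K_unique (hF : OneFix G Ω) {a : Ω} {t : G} (ht : t * t = 1) (hta : t • a ≠ a) {s s' : G}
    (hs : s ∈ involutionsIn (stabilizer G a : Set G)) (hs' : s' ∈ involutionsIn (stabilizer G a : Set G))
    {k l : G} (hk : k ∈ invertedBy (stabilizer G a ⊓ stabilizer G (t • a)) t) (hks : k⁻¹ * s * k = s')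
    (hl : l ∈ invertedBy (stabilizer G a ⊓ stabilizer G (t • a)) t) (hls : l⁻¹ * s * l = s') : k = l := by
  rw [mem_invo] at hs hs'
  obtain ⟨h1, h2, h3⟩ := hs
  obtain ⟨h1', h2', h3'⟩ := hs'
  have hinv : t⁻¹ = t := inv_eq_self_of_mul ht
  set u := t * s' * t with hu
  have huu : u * u = 1 := by
    calc u * u = t * s' * (t * t) * s' * t := by rw [hu]; simp only [mul_assoc]
      _ = t * (s' * s') * t := by rw [ht, mul_one]; simp only [mul_assoc]
      _ = 1 := by rw [h3', mul_one, ht]
  have hu1 : u ≠ 1 := by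
    intro h
    apply h2'
    have : s' = t * u * t := by
      rw [hu]
      calc s' = (t * t) * s' * (t * t) := by rw [ht, one_mul, mul_one]
        _ = t * (t * s' * t) * t := by simp only [mul_assoc]
    rw [this, h, mul_one, ht]
  have huf : u • (t • a) = t • a := by
    rw [hu, mul_smul, mul_smul, smul_smul t t, ht, one_smul, h1']
  have hne : a ≠ t • a := fun h => hta h.symm
  have main : ∀ k : G, k ∈ invertedBy (stabilizer G a ⊓ stabilizer G (t • a)) t → k⁻¹ * s * k = s' →
      (k * t) * (k * t) = 1 ∧ (k * t) * s * (k * t) = u := by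
    intro k hk hks
    have hkt : t * k * t = k⁻¹ := by
      have := ((mem_inv).mp hk).2.2
      rwa [hinv] at this
    have hkt' : k * t * k = t := by
      calc k * t * k = k * (t * k * t) * t := by simp only [mul_assoc, ht, mul_one]
        _ = t := by rw [hkt, mul_inv_cancel, one_mul]
    constructor
    · calc (k * t) * (k * t) = (k * t * k) * t := by simp only [mul_assoc]
        _ = 1 := by rw [hkt', ht]
    · have hsk : s * k = k * s' := by rw [← hks]; group
      calc (k * t) * s * (k * t) = k * t * (s * k) * t := by simp only [mul_assoc]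
        _ = (k * t * k) * s' * t := by rw [hsk]; simp only [mul_assoc]
        _ = u := by rw [hkt']
  obtain ⟨a1, a2⟩ := main k hk hks
  obtain ⟨b1, b2⟩ := main l hl hls
  have := hF.mid_unique h3 h2 huu hu1 h1 huf hne a1 a2 b1 b2
  exact mul_right_cancel this

/-- The number of elements inverted equals the number of involutions. -/
theorem OneFix.card_K (hF : OneFix G Ω) {a : Ω} {t : G} (ht : t * t = 1) (hta : t • a ≠ a)
    (hne : (involutionsIn (stabilizer G a : Set G)).Nonempty) :
    Nat.card (invertedBy (stabilizer G a ⊓ stabilizer G (t • a)) t) =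
      Nat.card (involutionsIn (stabilizer G a : Set G)) := by
  obtain ⟨s₀, hs₀⟩ := hne
  let f : invertedBy (stabilizer G a ⊓ stabilizer G (t • a)) t → involutionsIn (stabilizer G a : Set G) :=
    fun k => ⟨(k : G)⁻¹ * s₀ * k, by
      have hk := (mem_inv.mp k.2).1
      have hk' : (k : G)⁻¹ • a = a := by rw [inv_smul_eq_iff, hk]
      have := invo_conj hk' hs₀
      simpa using this⟩
  apply Nat.card_congr (Equiv.ofBijective f ⟨?_, ?_⟩)
  · intro k l hkl
    have hkl' : (k : G)⁻¹ * s₀ * k = (l : G)⁻¹ * s₀ * l := congrArg Subtype.val hkl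
    exact Subtype.ext (hF.K_unique ht hta hs₀ (f k).2 k.2 rfl l.2 hkl'.symm)
  · rintro ⟨s, hs⟩
    obtain ⟨k, hk, hks⟩ := hF.K_exists ht hta hs₀ hs
    exact ⟨⟨k, hk⟩, Subtype.ext hks⟩

end inverted

end Cfsg.Agent.H05
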