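import Mathlib
import Cfsg.Agent.Lib.H05.OneFix

/-!
# Centralizers of involutions elementary abelian: the action on the Sylow 2-subgroups
-/

set_option autoImplicit false
set_option linter.style.haveILetI false
set_option linter.unusedSectionVars false

namespace Cfsg.Agent.H05.PR5

open Subgroup Cfsg MulAction

variable {G Ω : Type*} [Group G] [Finite G] [MulAction G Ω]

/-- The abstract data: `T a` are the elementary abelian centralizers of involutions, one for each point. -/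
structure TS (T : Ω → Subgroup G) : Prop where
  mem : ∀ (a : Ω) (g : G), g ∈ T a ↔ g * g = 1 ∧ g • a = a
  cent : ∀ (a : Ω) (t g : G), t ∈ T a → t ≠ 1 → g * t = t * g → g ∈ T a
  fix : OneFix G Ω
  ne : ∀ a : Ω, ∃ s t : G, s ∈ T a ∧ t ∈ T a ∧ s ≠ 1 ∧ t ≠ 1 ∧ s ≠ t

variable {T : Ω → Subgroup G}

theorem TS.two_fix (h : TS T) {g : G} {a c : Ω} (hac : a ≠ c) (hg : g * g = 1) (h1 : g • a = a) (h2 : g • c = c) :
    g = 1 := by
  by_contra hg1
  exact hac (h.fix.eq hg hg1 h1 h2)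

theorem TS.comm (h : TS T) {a : Ω} {s t : G} (hs : s ∈ T a) (ht : t ∈ T a) : s * t = t * s := by
  have h1 := ((h.mem a _).mp (mul_mem hs ht)).1
  have h2 := ((h.mem a _).mp hs).1
  have h3 := ((h.mem a _).mp ht).1
  calc s * t = s * t * (t * s) * (t * s) := by
        have : t * s * (t * s) = 1 := ((h.mem a _).mp (mul_mem ht hs)).1
        rw [mul_assoc (s * t), this, mul_one]
    _ = s * (t * t) * s * (t * s) := by simp only [mul_assoc]
    _ = t * s := by rw [h3, mul_one, h2, one_mul]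

theorem TS.conj_mem (h : TS T) {a : Ω} {g t : G} (hg : g • a = a) (ht : t ∈ T a) : g * t * g⁻¹ ∈ T a := by
  rw [h.mem] at ht ⊢
  obtain ⟨h1, h2⟩ := ht
  constructor
  · calc g * t * g⁻¹ * (g * t * g⁻¹) = g * (t * t) * g⁻¹ := by group
      _ = 1 := by rw [h1]; group
  · have h3 : g⁻¹ • a = a := by rw [inv_smul_eq_iff, hg]
    rw [mul_smul, mul_smul, h3, h2, hg]

/-- swap: an involution carrying `a` to `c` also carries `c` to `a`. -/
theorem swap_back {u : G} {a c : Ω} (hu : u * u = 1) (h : u • a = c) : u • c = a := by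
  rw [← h, smul_smul, hu, one_smul]

/-- Existence of the mid-involution for involutions in different `T`. -/
theorem TS.exists_mid' (h : TS T) {a c : Ω} (hac : a ≠ c) {t r : G} (ht : t ∈ T a) (ht1 : t ≠ 1)
    (hr : r ∈ T c) (hr1 : r ≠ 1) : ∃ v : G, v * v = 1 ∧ v * t * v = r ∧ v • a = c := by
  obtain ⟨ht2, ht3⟩ := (h.mem a t).mp ht
  obtain ⟨hr2, hr3⟩ := (h.mem c r).mp hr
  obtain ⟨k, h1, h2⟩ := h.fix.exists_mid ht2 ht1 hr2 hr1 ht3 hr3 hac
  exact ⟨_, h1, h2, h.fix.mid_smul hr2 hr1 ht3 hr3 h1 h2⟩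

theorem TS.mid_unique' (h : TS T) {a c : Ω} (hac : a ≠ c) {t r v w : G} (ht : t ∈ T a) (ht1 : t ≠ 1)
    (hr : r ∈ T c) (hr1 : r ≠ 1) (hv : v * v = 1) (hvt : v * t * v = r) (hw : w * w = 1) (hwt : w * t * w = r) :
    v = w := by
  obtain ⟨ht2, ht3⟩ := (h.mem a t).mp ht
  obtain ⟨hr2, hr3⟩ := (h.mem c r).mp hr
  exact h.fix.mid_unique ht2 ht1 hr2 hr1 ht3 hr3 hac hv hvt hw hwt

theorem invol_conj_mem (h : TS T) {a c : Ω} {u t : G} (hu : u * u = 1) (hua : u • a = c) (ht : t ∈ T a) :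
    u * t * u ∈ T c := by
  rw [h.mem] at ht ⊢
  obtain ⟨h1, h2⟩ := ht
  constructor
  · calc u * t * u * (u * t * u) = u * t * (u * u) * t * u := by simp only [mul_assoc]
      _ = u * (t * t) * u := by rw [hu, mul_one]; simp only [mul_assoc]
      _ = 1 := by rw [h1, mul_one, hu]
  · rw [mul_smul, mul_smul, swap_back hu hua, h2, hua]

theorem invol_conj_ne (hu : ∀ u : G, True) {u t : G} (hu : u * u = 1) (ht : t ≠ 1) : u * t * u ≠ 1 := by
  intro h
  apply ht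
  calc t = u * (u * t * u) * u := by
        calc t = (u * u) * t * (u * u) := by rw [hu, one_mul, mul_one]
          _ = u * (u * t * u) * u := by simp only [mul_assoc]
    _ = 1 := by rw [h, mul_one, hu]

/-- The two point stabilizer. -/
def DD (G : Type*) [Group G] {Ω : Type*} [MulAction G Ω] (a c : Ω) : Subgroup G :=
  stabilizer G a ⊓ stabilizer G c

theorem mem_DD {a c : Ω} {d : G} : d ∈ DD G a c ↔ d • a = a ∧ d • c = c := by
  simp [DD, mem_stabilizer_iff]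

/-- Every element of `DD a c` is a product of two involutions swapping `a` and `c`. -/
theorem TS.D_form (h : TS T) {a c : Ω} (hac : a ≠ c) {u : G} (hu : u * u = 1) (hua : u • a = c)
    {t : G} (ht : t ∈ T a) (ht1 : t ≠ 1) {t' : G} (ht' : t' ∈ T a) (ht1' : t' ≠ 1) :
    ∃ v : G, v * v = 1 ∧ v • a = c ∧ (u * v) * t * (u * v)⁻¹ = t' := by
  have h1 := invol_conj_mem h hu hua ht'
  have h2 := invol_conj_ne (fun _ => trivial) hu ht1'
  obtain ⟨v, hv, hvt, hva⟩ := h.exists_mid' hac ht ht1 h1 h2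
  refine ⟨v, hv, hva, ?_⟩
  have hui : u⁻¹ = u := inv_eq_of_mul_eq_one_left hu
  have hvi : v⁻¹ = v := inv_eq_of_mul_eq_one_left hv
  rw [mul_inv_rev, hui, hvi]
  calc u * v * t * (v * u) = u * (v * t * v) * u := by simp only [mul_assoc]
    _ = u * (u * t' * u) * u := by rw [hvt]
    _ = (u * u) * t' * (u * u) := by simp only [mul_assoc]
    _ = t' := by rw [hu, one_mul, mul_one]

/-- `DD a c` acts semiregularly on the involutions of `T a`. -/
theorem TS.D_semi (h : TS T) {a c : Ω} (hac : a ≠ c) {d e t : G} (hd : d ∈ DD G a c) (he : e ∈ DD G a c)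
    (ht : t ∈ T a) (ht1 : t ≠ 1) (hde : d * t * d⁻¹ = e * t * e⁻¹) : d = e := by
  have h1 : e⁻¹ * d ∈ DD G a c := mul_mem (inv_mem he) hd
  have h2 : (e⁻¹ * d) * t = t * (e⁻¹ * d) := by
    calc e⁻¹ * d * t = e⁻¹ * (d * t * d⁻¹) * d := by group
      _ = e⁻¹ * (e * t * e⁻¹) * d := by rw [hde]
      _ = t * (e⁻¹ * d) := by group
  have h3 := h.cent a t _ ht ht1 h2
  have h4 := ((h.mem a _).mp h3).1
  have h5 := h.two_fix hac h4 (mem_DD.mp h1).1 (mem_DD.mp h1).2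
  have h6 : d = e * (e⁻¹ * d) := by group
  rw [h6, h5, mul_one]

/-- Any involution swapping `a` and `c` inverts `DD a c`. -/
theorem TS.D_inv (h : TS T) {a c : Ω} (hac : a ≠ c) {u : G} (hu : u * u = 1) (hua : u • a = c)
    {d : G} (hd : d ∈ DD G a c) : u * d * u = d⁻¹ := by
  obtain ⟨s, -, hs, -, hs1, -, -⟩ := h.ne a
  have hda : d • a = a := (mem_DD.mp hd).1
  have h1 := h.conj_mem hda hs
  have h2 : d * s * d⁻¹ ≠ 1 := by
    intro h3
    apply hs1
    calc s = d⁻¹ * (d * s * d⁻¹) * d := by group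
      _ = 1 := by rw [h3]; group
  obtain ⟨v, hv, hva, hvt⟩ := h.D_form hac hu hua hs hs1 h1 h2
  have hm : u * v ∈ DD G a c := by
    rw [mem_DD]
    constructor
    · rw [mul_smul, hva, swap_back hu hua]
    · rw [mul_smul, swap_back hv hva, hua]
  have h3 := h.D_semi hac hm hd hs hs1 hvt
  rw [← h3, mul_inv_rev, inv_eq_of_mul_eq_one_left hu, inv_eq_of_mul_eq_one_left hv]
  calc u * (u * v) * u = (u * u) * v * u := by simp only [mul_assoc]
    _ = v * u := by rw [hu, one_mul]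

/-- There is an involution swapping two points. -/
theorem TS.exists_swap (h : TS T) {a c : Ω} (hac : a ≠ c) : ∃ u : G, u * u = 1 ∧ u • a = c := by
  obtain ⟨s, -, hs, -, hs1, -, -⟩ := h.ne a
  obtain ⟨r, -, hr, -, hr1, -, -⟩ := h.ne c
  obtain ⟨v, hv, -, hva⟩ := h.exists_mid' hac hs hs1 hr hr1
  exact ⟨v, hv, hva⟩

theorem TS.D_comm (h : TS T) {a c : Ω} (hac : a ≠ c) {d e : G} (hd : d ∈ DD G a c) (he : e ∈ DD G a c) :
    d * e = e * d := by
  obtain ⟨u, hu, hua⟩ := h.exists_swap hac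
  have h1 := h.D_inv hac hu hua hd
  have h2 := h.D_inv hac hu hua he
  have h3 := h.D_inv hac hu hua (mul_mem hd he)
  have h4 : u * (d * e) * u = (u * d * u) * (u * e * u) := by
    calc u * (d * e) * u = u * d * 1 * e * u := by simp only [mul_assoc, mul_one]
      _ = u * d * (u * u) * e * u := by rw [hu]
      _ = _ := by simp only [mul_assoc]
  rw [h4, h1, h2, mul_inv_rev] at h3
  have h5 : (e * d)⁻¹ = (d * e)⁻¹ := by
    rw [mul_inv_rev, mul_inv_rev]
    exact h3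
  exact (inv_injective h5).symm

/-- Transitivity on the involutions of `T a`. -/
theorem TS.D_trans (h : TS T) {a c : Ω} (hac : a ≠ c) {t t' : G} (ht : t ∈ T a) (ht1 : t ≠ 1)
    (ht' : t' ∈ T a) (ht1' : t' ≠ 1) : ∃ d ∈ DD G a c, d * t * d⁻¹ = t' := by
  obtain ⟨u, hu, hua⟩ := h.exists_swap hac
  obtain ⟨v, hv, hva, hvt⟩ := h.D_form hac hu hua ht ht1 ht' ht1'
  refine ⟨u * v, ?_, hvt⟩
  rw [mem_DD]
  constructor
  · rw [mul_smul, hva, swap_back hu hua]
  · rw [mul_smul, swap_back hv hva, hua]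

/-- The stabilizer of `a` factors. -/
theorem TS.N_factor (h : TS T) {a c : Ω} (hac : a ≠ c) {g : G} (hg : g • a = a) :
    ∃ d ∈ DD G a c, ∃ τ ∈ T a, g = d * τ := by
  obtain ⟨s, -, hs, -, hs1, -, -⟩ := h.ne a
  have h1 := h.conj_mem hg hs
  have h2 : g * s * g⁻¹ ≠ 1 := by
    intro h3
    apply hs1
    calc s = g⁻¹ * (g * s * g⁻¹) * g := by group
      _ = 1 := by rw [h3]; group
  obtain ⟨d, hd, hds⟩ := h.D_trans hac hs hs1 h1 h2
  refine ⟨d, hd, d⁻¹ * g, ?_, by group⟩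
  apply h.cent a s _ hs hs1
  calc d⁻¹ * g * s = d⁻¹ * (g * s * g⁻¹) * g := by group
    _ = d⁻¹ * (d * s * d⁻¹) * g := by rw [hds]
    _ = s * (d⁻¹ * g) := by group

/-- An element of `DD` commuting with a nontrivial element of `T a` is trivial. -/
theorem TS.D_cent (h : TS T) {a c : Ω} (hac : a ≠ c) {d τ : G} (hd : d ∈ DD G a c) (hτ : τ ∈ T a) (hτ1 : τ ≠ 1)
    (hc : d * τ = τ * d) : d = 1 := by
  have h1 := h.cent a τ d hτ hτ1 hc
  exact h.two_fix hac ((h.mem a d).mp h1).1 (mem_DD.mp hd).1 (mem_DD.mp hd).2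

/-- If a nontrivial element of `DD a c` fixes `b`, then `DD a b ≤ DD a c`. -/
theorem TS.D_le (h : TS T) {a b c : Ω} (hac : a ≠ c) (hab : a ≠ b) {d : G} (hd : d ∈ DD G a c) (hd1 : d ≠ 1)
    (hdb : d • b = b) {k : G} (hk : k ∈ DD G a b) : k ∈ DD G a c := by
  obtain ⟨e, he, τ, hτ, hk'⟩ := h.N_factor hac (mem_DD.mp hk).1
  have hdab : d ∈ DD G a b := mem_DD.mpr ⟨(mem_DD.mp hd).1, hdb⟩
  have h1 := h.D_comm hab hdab hk
  have h2 := h.D_comm hac hd he
  have h3 : d * τ = τ * d := by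
    rw [hk'] at h1
    have : e * (d * τ) = e * (τ * d) := by
      calc e * (d * τ) = (e * d) * τ := by group
        _ = (d * e) * τ := by rw [h2]
        _ = d * (e * τ) := by group
        _ = e * τ * d := h1
        _ = e * (τ * d) := by group
    exact mul_left_cancel this
  have hτ1 : τ = 1 := by
    by_contra hne
    exact hd1 (h.D_cent hac hd hτ hne h3)
  rw [hk', hτ1, mul_one]
  exact he

/-- The fixed points of a nontrivial element of a two point stabilizer. -/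
theorem TS.fix_two (h : TS T) {a b c : Ω} (hac : a ≠ c) {d : G} (hd : d ∈ DD G a c) (hd1 : d ≠ 1)
    (hdb : d • b = b) : b = a ∨ b = c := by
  by_contra hno
  push Not at hno
  obtain ⟨hba, hbc⟩ := hno
  have hab : a ≠ b := hba.symm
  have hdab : d ∈ DD G a b := mem_DD.mpr ⟨(mem_DD.mp hd).1, hdb⟩
  -- the two point stabilizers agree
  have hle1 : ∀ k, k ∈ DD G a c → k ∈ DD G a b := fun k hk =>
    h.D_le hab hac hdab hd1 (mem_DD.mp hd).2 hk
  obtain ⟨u, hu, hua⟩ := h.exists_swap hac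
  obtain ⟨v, hv, hva⟩ := h.exists_swap hab
  set e := u • b with he
  have hea : a ≠ e := by
    intro h1
    have h2 : u • a = b := by
      rw [h1, he, smul_smul, hu, one_smul]
    exact hbc (h2.symm.trans hua)
  have hfe : ∀ f ∈ DD G a c, f • e = e := by
    intro f hf
    have h1 := h.D_inv hac hu hua hf
    have h2 : f⁻¹ ∈ DD G a b := hle1 _ (inv_mem hf)
    have h3 : f * u = u * f⁻¹ := by
      calc f * u = (u * u) * f * u := by rw [hu, one_mul]
        _ = u * (u * f * u) := by simp only [mul_assoc]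
        _ = u * f⁻¹ := by rw [h1]
    rw [he, smul_smul, h3, mul_smul, (mem_DD.mp h2).2]
  obtain ⟨w, hw, hwa⟩ := h.exists_swap hea
  -- conjugation by `w * (u * v)`
  have hconj : ∀ f ∈ DD G a c, (w * (u * v)) * f * (w * (u * v))⁻¹ = f⁻¹ := by
    intro f hf
    have h1 := h.D_inv hac hu hua hf
    have h1' := h.D_inv hac hu hua (inv_mem hf)
    have h2 := h.D_inv hab hv hva (hle1 _ hf)
    have h3 : f ∈ DD G a e := mem_DD.mpr ⟨(mem_DD.mp hf).1, hfe f hf⟩
    have h4 := h.D_inv hea hw hwa h3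
    rw [mul_inv_rev, mul_inv_rev, inv_eq_of_mul_eq_one_left hw, inv_eq_of_mul_eq_one_left hu,
      inv_eq_of_mul_eq_one_left hv]
    calc w * (u * v) * f * (v * u * w) = w * (u * (v * f * v) * u) * w := by simp only [mul_assoc]
      _ = w * (u * f⁻¹ * u) * w := by rw [h2]
      _ = w * f * w := by rw [h1', inv_inv]
      _ = f⁻¹ := h4
  have hfix : (w * (u * v)) • a = a := by
    rw [mul_smul, mul_smul, hva, ← he, swap_back hw hwa]
  obtain ⟨d', hd', τ, hτ, hwg⟩ := h.N_factor hac hfix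
  -- now `τ` inverts `d`
  have h5 : τ * d * τ⁻¹ = d⁻¹ := by
    have h6 := hconj d hd
    rw [hwg] at h6
    have h7 := h.D_comm hac hd' (inv_mem hd)
    calc τ * d * τ⁻¹ = d'⁻¹ * ((d' * τ) * d * (d' * τ)⁻¹) * d' := by group
      _ = d'⁻¹ * d⁻¹ * d' := by rw [h6]
      _ = d⁻¹ := by
        have h8 := h.D_comm hac (inv_mem hd') (inv_mem hd)
        rw [h8]
        group
  have h9 : d⁻¹ * d⁻¹ ∈ T a := by
    have h10 : τ * (d * τ⁻¹ * d⁻¹) ∈ T a :=
      mul_mem hτ (h.conj_mem (mem_DD.mp hd).1 (inv_mem hτ))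
    have h11 : τ * (d * τ⁻¹ * d⁻¹) = d⁻¹ * d⁻¹ := by
      calc τ * (d * τ⁻¹ * d⁻¹) = τ * d * τ⁻¹ * d⁻¹ := by group
        _ = d⁻¹ * d⁻¹ := by rw [h5]
    rwa [h11] at h10
  have h12 : d⁻¹ * d⁻¹ ∈ DD G a c := mul_mem (inv_mem hd) (inv_mem hd)
  have h13 := h.two_fix hac ((h.mem a _).mp h9).1 (mem_DD.mp h12).1 (mem_DD.mp h12).2
  have h14 : d * d = 1 := by
    have : (d * d)⁻¹ = 1 := by rw [mul_inv_rev]; exact h13
    exact inv_eq_one.mp this
  exact hd1 (h.two_fix hac h14 (mem_DD.mp hd).1 (mem_DD.mp hd).2)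

/-- There are nontrivial elements in two point stabilizers. -/
theorem TS.exists_D_ne (h : TS T) {a c : Ω} (hac : a ≠ c) : ∃ d ∈ DD G a c, d ≠ 1 := by
  obtain ⟨s, t, hs, ht, hs1, ht1, hst⟩ := h.ne a
  obtain ⟨d, hd, hds⟩ := h.D_trans hac hs hs1 ht ht1
  refine ⟨d, hd, ?_⟩
  rintro rfl
  apply hst
  simpa using hds

/-- `T a` is transitive on the other points. -/
theorem TS.T_trans (h : TS T) {a b c : Ω} (hac : a ≠ c) (hab : a ≠ b) : ∃ τ ∈ T a, τ • b = c := by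
  obtain ⟨k, hk, hk1⟩ := h.exists_D_ne hab
  obtain ⟨d, hd, σ, hσ, hkd⟩ := h.N_factor hac (mem_DD.mp hk).1
  have hd1 : d ≠ 1 := by
    rintro rfl
    rw [one_mul] at hkd
    rw [hkd] at hk hk1
    exact hk1 (h.two_fix hab ((h.mem a _).mp hσ).1 (mem_DD.mp hk).1 (mem_DD.mp hk).2)
  -- the commutator map
  let φ : T a → T a := fun τ => ⟨(d⁻¹ * τ * d) * (τ : G)⁻¹, mul_mem (by
    have := h.conj_mem (g := d⁻¹) (inv_smul_eq_iff.mpr (mem_DD.mp hd).1.symm) τ.2
    simpa [mul_assoc] using this) (inv_mem τ.2)⟩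
  have hφ : Function.Injective φ := by
    intro τ₁ τ₂ he
    have h1 : (d⁻¹ * τ₁ * d) * (τ₁ : G)⁻¹ = (d⁻¹ * τ₂ * d) * (τ₂ : G)⁻¹ := congrArg Subtype.val he
    by_contra hne
    have hne' : (τ₂ : G)⁻¹ * τ₁ ≠ 1 := by
      intro h2
      apply hne
      apply Subtype.ext
      exact (inv_mul_eq_one.mp h2).symm
    have h3 : (τ₂ : G)⁻¹ * τ₁ ∈ T a := mul_mem (inv_mem τ₂.2) τ₁.2
    apply hd1
    apply h.D_cent hac hd h3 hne'
    have h2 : (τ₁ : G) * d * (τ₁ : G)⁻¹ = τ₂ * d * (τ₂ : G)⁻¹ := by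
      have h4 := congrArg (d * ·) h1
      simpa [mul_assoc] using h4
    calc d * ((τ₂ : G)⁻¹ * τ₁) = (τ₂ : G)⁻¹ * (τ₂ * d * (τ₂ : G)⁻¹) * τ₁ := by group
      _ = (τ₂ : G)⁻¹ * (τ₁ * d * (τ₁ : G)⁻¹) * τ₁ := by rw [h2]
      _ = (τ₂ : G)⁻¹ * τ₁ * d := by group
  have hsurj := Finite.injective_iff_surjective.mp hφ
  obtain ⟨τ, hτ⟩ := hsurj ⟨σ⁻¹, inv_mem hσ⟩
  have hτ' : (d⁻¹ * τ * d) * (τ : G)⁻¹ = σ⁻¹ := congrArg Subtype.val hτ
  have hτd : (τ : G) * d * (τ : G)⁻¹ = d * σ⁻¹ := by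
    rw [← hτ']; group
  have hconj : (τ : G) * k * (τ : G)⁻¹ = d := by
    have h1 : σ * (τ : G)⁻¹ = (τ : G)⁻¹ * σ := h.comm hσ (inv_mem τ.2)
    rw [hkd]
    calc (τ : G) * (d * σ) * (τ : G)⁻¹ = (τ : G) * d * (σ * (τ : G)⁻¹) := by group
      _ = (τ : G) * d * ((τ : G)⁻¹ * σ) := by rw [h1]
      _ = ((τ : G) * d * (τ : G)⁻¹) * σ := by group
      _ = d := by rw [hτd]; group
  have hfix : d • ((τ : G) • b) = (τ : G) • b := by
    rw [smul_smul, ← hconj]
    have h1 : (τ : G) * k * (τ : G)⁻¹ * τ = τ * k := by group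
    rw [h1, mul_smul, (mem_DD.mp hk).2]
  rcases h.fix_two hac hd hd1 hfix with h2 | h2
  · exfalso
    have h3 : (τ : G) • a = a := ((h.mem a _).mp τ.2).2
    apply hab
    have h4 : (τ : G) • b = (τ : G) • a := by rw [h2, h3]
    exact (MulAction.injective _ h4).symm
  · exact ⟨τ, τ.2, h2⟩

/-- Transitivity of the two point stabilizer on the remaining points. -/
theorem TS.D_trans_pts (h : TS T) {a c b b' : Ω} (hac : a ≠ c) (hab : a ≠ b) (hcb : c ≠ b) (hab' : a ≠ b')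
    (hcb' : c ≠ b') : ∃ d ∈ DD G a c, d • b = b' := by
  obtain ⟨τ, hτ, hτb⟩ := h.T_trans hab hac
  obtain ⟨τ', hτ', hτb'⟩ := h.T_trans hab' hac
  have h1 : τ ≠ 1 := by
    rintro rfl
    rw [one_smul] at hτb
    exact hcb hτb
  have h2 : τ' ≠ 1 := by
    rintro rfl
    rw [one_smul] at hτb'
    exact hcb' hτb'
  obtain ⟨d, hd, hdt⟩ := h.D_trans hac hτ h1 hτ' h2
  refine ⟨d, hd, ?_⟩
  have hdc : d • c = c := (mem_DD.mp hd).2
  have hdc' : d⁻¹ • c = c := by rw [inv_smul_eq_iff, hdc]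
  rw [← hτb, ← hτb', ← hdt, mul_smul, mul_smul, hdc']

/-- Triple transitivity. -/
theorem TS.three (h : TS T) (htr : ∀ a b : Ω, ∃ g : G, g • a = b) {a b c a' b' c' : Ω}
    (h1 : a ≠ b) (h2 : a ≠ c) (h3 : b ≠ c) (h4 : a' ≠ b') (h5 : a' ≠ c') (h6 : b' ≠ c') :
    ∃ g : G, g • a = a' ∧ g • b = b' ∧ g • c = c' := by
  obtain ⟨g₁, hg₁⟩ := htr a a'
  have h7 : a' ≠ g₁ • b := by rw [← hg₁]; exact fun h => h1 (MulAction.injective _ h)
  have h8 : a' ≠ g₁ • c := by rw [← hg₁]; exact fun h => h2 (MulAction.injective _ h)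
  have h9 : g₁ • b ≠ g₁ • c := fun h => h3 (MulAction.injective _ h)
  obtain ⟨τ, hτ, hτb⟩ := h.T_trans h4 h7
  have hτa : τ • a' = a' := ((h.mem a' τ).mp hτ).2
  have h10 : a' ≠ τ • g₁ • c := by
    intro h11
    rw [← hτa] at h11
    exact h8 (MulAction.injective _ h11)
  have h11 : b' ≠ τ • g₁ • c := by
    rw [← hτb]
    exact fun h => h9 (MulAction.injective _ h)
  obtain ⟨d, hd, hdc⟩ := h.D_trans_pts h4 h10 h11 h5 h6
  refine ⟨d * (τ * g₁), ?_, ?_, ?_⟩
  · rw [mul_smul, mul_smul, hg₁, hτa, (mem_DD.mp hd).1]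
  · rw [mul_smul, mul_smul, hτb, (mem_DD.mp hd).2]
  · rw [mul_smul, mul_smul, hdc]

/-- `T a` is regular on the other points. -/
theorem TS.card_pts (h : TS T) [Finite Ω] {a c : Ω} (hac : a ≠ c) : Nat.card Ω = Nat.card (T a) + 1 := by
  classical
  let f : T a → {x : Ω // x ≠ a} := fun τ => ⟨(τ : G) • c, by
    intro h1
    have h2 : (τ : G) • a = a := ((h.mem a _).mp τ.2).2
    have h3 : (τ : G) • c = (τ : G) • a := h1.trans h2.symm
    exact hac (MulAction.injective _ h3).symm⟩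
  have hf : Function.Bijective f := by
    constructor
    · intro τ₁ τ₂ he
      have h1 : (τ₁ : G) • c = (τ₂ : G) • c := congrArg Subtype.val he
      have h2 : (τ₂ : G)⁻¹ * τ₁ ∈ T a := mul_mem (inv_mem τ₂.2) τ₁.2
      have h3 := (h.mem a _).mp h2
      have h4 : ((τ₂ : G)⁻¹ * τ₁) • c = c := by
        rw [mul_smul, h1, inv_smul_smul]
      have h5 := h.two_fix hac h3.1 h3.2 h4
      apply Subtype.ext
      exact (inv_mul_eq_one.mp h5).symm
    · rintro ⟨b, hb⟩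
      obtain ⟨τ, hτ, hτb⟩ := h.T_trans (Ne.symm hb) hac
      exact ⟨⟨τ, hτ⟩, Subtype.ext hτb⟩
  have h1 := Nat.card_congr (Equiv.ofBijective f hf)
  have h2 := Nat.card_congr (Equiv.optionSubtypeNe a)
  rw [Finite.card_option] at h2
  rw [← h2, h1]

/-- At most two fixed points. -/
theorem TS.eq_one (h : TS T) {g : G} {a b c : Ω} (hab : a ≠ b) (hac : a ≠ c) (hbc : b ≠ c) (h1 : g • a = a)
    (h2 : g • b = b) (h3 : g • c = c) : g = 1 := by
  by_contra hne
  rcases h.fix_two hac (mem_DD.mpr ⟨h1, h3⟩) hne h2 with h4 | h4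
  · exact hab h4.symm
  · exact hbc h4

end Cfsg.Agent.H05.PR5
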