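import Mathlib
import Cfsg.Agent.Lib.H05.PSLRec
import Cfsg.Agent.Lib.H22.Sharp3
import Cfsg.Agent.Lib.H08.L2.Basic

/-!
# Centralizers of involutions elementary abelian: recognition of `PSL₂(2^n)`
-/

set_option autoImplicit false
set_option linter.style.haveILetI false
set_option linter.unusedSectionVars false

namespace Cfsg.Agent.H05.PR5

open Subgroup Cfsg MulAction

variable {G : Type*} [Group G] [Finite G]

/-- Elementary abelian Sylow subgroups from the centralizer hypothesis. -/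
theorem sylow_facts
    (hC : ∀ t : G, orderOf t = 2 → IsMulCommutative (Subgroup.centralizer ({t} : Set G)) ∧ ∀ c ∈ Subgroup.centralizer ({t} : Set G), c ^ 2 = 1)
    (x : Sylow 2 G) (hne : Nontrivial (x : Subgroup G)) :
    (∀ g ∈ (x : Subgroup G), g * g = 1) ∧
      (∀ t ∈ (x : Subgroup G), t ≠ 1 → ∀ g : G, g * t = t * g → g ∈ (x : Subgroup G)) := by
  classical
  haveI : Fact (Nat.Prime 2) := ⟨Nat.prime_two⟩
  have hp : IsPGroup 2 (x : Subgroup G) := x.isPGroup'
  haveI hcn : Nontrivial (center (x : Subgroup G)) := hp.center_nontrivial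
  have hdvd : 2 ∣ Nat.card (center (x : Subgroup G)) := by
    have hpc : IsPGroup 2 (center (x : Subgroup G)) := hp.to_subgroup _
    rcases hpc.card_eq_or_dvd with h1 | h1
    · exact absurd h1 Finite.one_lt_card.ne'
    · exact h1
  obtain ⟨z, hz⟩ := exists_prime_orderOf_dvd_card' 2 hdvd
  have hz2 : orderOf (((z : (x : Subgroup G))) : G) = 2 := by
    rw [Subgroup.orderOf_coe, Subgroup.orderOf_coe]
    exact hz
  obtain ⟨h1, h2⟩ := hC _ hz2
  have hxz : ∀ g ∈ (x : Subgroup G), g ∈ Subgroup.centralizer ({(((z : (x : Subgroup G))) : G)} : Set G) := by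
    intro g hg
    rw [Subgroup.mem_centralizer_singleton_iff]
    have h3 := (Subgroup.mem_center_iff.mp z.2) ⟨g, hg⟩
    exact congrArg Subtype.val h3
  have hsq : ∀ g ∈ (x : Subgroup G), g * g = 1 := by
    intro g hg
    have := h2 g (hxz g hg)
    rwa [pow_two] at this
  have hcomm : ∀ g ∈ (x : Subgroup G), ∀ k ∈ (x : Subgroup G), g * k = k * g := by
    intro g hg k hk
    have := h1.is_comm.comm ⟨g, hxz g hg⟩ ⟨k, hxz k hk⟩
    exact congrArg Subtype.val this
  refine ⟨hsq, ?_⟩
  intro t ht ht1 g hg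
  have ht2 : orderOf t = 2 := orderOf_eq_prime (by rw [pow_two]; exact hsq t ht) ht1
  have hle : (x : Subgroup G) ≤ Subgroup.centralizer ({t} : Set G) := by
    intro k hk
    rw [Subgroup.mem_centralizer_singleton_iff]
    exact hcomm k hk t ht
  have hP : IsPGroup 2 (Subgroup.centralizer ({t} : Set G)) := by
    intro c
    refine ⟨1, ?_⟩
    apply Subtype.ext
    have := (hC t ht2).2 c c.2
    simpa using this
  have heq := x.is_maximal' hP hle
  have h3 : g ∈ Subgroup.centralizer ({t} : Set G) := by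
    rw [Subgroup.mem_centralizer_singleton_iff]
    exact hg
  rw [heq] at h3
  exact h3

theorem isP_zpowers {g : G} (hg : g * g = 1) : IsPGroup 2 (zpowers g) := by
  rintro ⟨y, k, rfl⟩
  refine ⟨1, ?_⟩
  apply Subtype.ext
  have h1 : g ^ 2 = 1 := by rw [pow_two]; exact hg
  change (g ^ k) ^ 2 ^ 1 = 1
  rw [pow_one, ← zpow_natCast, ← zpow_mul, mul_comm, zpow_mul]
  simp [h1]

/-- The abstract data on the set of Sylow `2`-subgroups. -/
theorem ts_sylow
    (hC : ∀ t : G, orderOf t = 2 → IsMulCommutative (Subgroup.centralizer ({t} : Set G)) ∧ ∀ c ∈ Subgroup.centralizer ({t} : Set G), c ^ 2 = 1)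
    (h3 : ∀ x : Sylow 2 G, 3 ≤ Nat.card (x : Subgroup G)) :
    TS (fun x : Sylow 2 G => (x : Subgroup G)) := by
  classical
  haveI : Fact (Nat.Prime 2) := ⟨Nat.prime_two⟩
  have hnt : ∀ x : Sylow 2 G, Nontrivial (x : Subgroup G) := fun x =>
    Finite.one_lt_card_iff_nontrivial.mp (by have := h3 x; omega)
  have hf := fun x => sylow_facts hC x (hnt x)
  have hmem : ∀ (a : Sylow 2 G) (g : G), g ∈ (a : Subgroup G) ↔ g * g = 1 ∧ g • a = a := by
    intro a g
    constructor
    · intro hg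
      refine ⟨(hf a).1 g hg, ?_⟩
      rw [Sylow.smul_eq_iff_mem_normalizer]
      exact Subgroup.le_normalizer hg
    · rintro ⟨h1, h2⟩
      rw [Sylow.smul_eq_iff_mem_normalizer] at h2
      have h4 := IsPGroup.inf_normalizer_sylow (isP_zpowers h1) a
      have h5 := Subgroup.mem_inf.mpr ⟨Subgroup.mem_zpowers g, h2⟩
      rw [h4] at h5
      exact (Subgroup.mem_inf.mp h5).2
  refine ⟨hmem, ?_, ?_, ?_⟩
  · intro a t g ht ht1 hg
    exact (hf a).2 t ht ht1 g hg
  · intro s hs hs1
    obtain ⟨Q, hQ⟩ := (isP_zpowers hs).exists_le_sylow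
    have hsQ : s ∈ (Q : Subgroup G) := hQ (Subgroup.mem_zpowers s)
    refine ⟨Q, ((hmem Q s).mp hsQ).2, ?_⟩
    intro y hy
    have hsy : s ∈ (y : Subgroup G) := (hmem y s).mpr ⟨hs, hy⟩
    have hle : (y : Subgroup G) ≤ (Q : Subgroup G) := by
      intro g hg
      apply (hf Q).2 s hsQ hs1
      -- `g` and `s` commute in `y`
      have h1 := (hf y).1 _ (mul_mem hg hsy)
      have h2 := (hf y).1 _ hg
      calc g * s = g * s * (s * g) * (s * g) := by
            have : s * g * (s * g) = 1 := (hf y).1 _ (mul_mem hsy hg)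
            rw [mul_assoc (g * s), this, mul_one]
        _ = g * (s * s) * g * (s * g) := by simp only [mul_assoc]
        _ = s * g := by rw [hs, mul_one, h2, one_mul]
    have h4 := y.is_maximal' Q.isPGroup' hle
    exact Sylow.ext h4.symm
  · intro a
    have h1 := h3 a
    haveI : Fintype (a : Subgroup G) := Fintype.ofFinite _
    rw [Nat.card_eq_fintype_card] at h1
    obtain ⟨p, q, r, hpq, hpr, hqr⟩ := Fintype.two_lt_card_iff.mp (by omega : 2 < Fintype.card (a : Subgroup G))
    have hne : ∀ {u v : (a : Subgroup G)}, u ≠ v → (u : G) ≠ v := fun h h' => h (Subtype.ext h')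
    by_cases hp : (p : G) = 1
    · refine ⟨q, r, q.2, r.2, ?_, ?_, hne hqr⟩
      · intro h5
        exact hpq (Subtype.ext (hp.trans h5.symm))
      · intro h5
        exact hpr (Subtype.ext (hp.trans h5.symm))
    · by_cases hq : (q : G) = 1
      · refine ⟨p, r, p.2, r.2, hp, ?_, hne hpr⟩
        intro h5
        exact hqr (Subtype.ext (hq.trans h5.symm))
      · exact ⟨p, q, p.2, q.2, hp, hq, hne hpq⟩

/-- The recognition theorem. -/
theorem main (T : Sylow 2 G) (hnc : ¬ IsCyclic (T : Subgroup G)) (hnn : ¬ (T : Subgroup G).Normal)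
    (hC : ∀ t : G, orderOf t = 2 → IsMulCommutative (Subgroup.centralizer ({t} : Set G)) ∧ ∀ c ∈ Subgroup.centralizer ({t} : Set G), c ^ 2 = 1) :
    ∃ (F : Type) (_ : Field F) (_ : Fintype F), Fintype.card F = Nat.card T ∧ Nonempty (G ≃* Matrix.ProjectiveSpecialLinearGroup (Fin 2) F) := by
  classical
  haveI : Fact (Nat.Prime 2) := ⟨Nat.prime_two⟩
  have hq : 4 ≤ Nat.card (T : Subgroup G) := by
    obtain ⟨k, hk⟩ := IsPGroup.iff_card.mp T.isPGroup'
    rcases k with _ | _ | k
    · exfalso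
      apply hnc
      haveI : Subsingleton (T : Subgroup G) := (Nat.card_eq_one_iff_unique.mp (by simpa using hk)).1
      exact isCyclic_of_subsingleton
    · exfalso
      apply hnc
      exact isCyclic_of_prime_card (p := 2) (by simpa using hk)
    · rw [hk, pow_succ, pow_succ]
      have : 1 ≤ 2 ^ k := Nat.one_le_two_pow
      omega
  have hcard : ∀ x : Sylow 2 G, Nat.card (x : Subgroup G) = Nat.card (T : Subgroup G) := fun x =>
    Nat.card_congr (Sylow.equiv x T).toEquiv
  have hTS := ts_sylow hC (fun x => by rw [hcard x]; omega)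
  have hnt : ∃ c : Sylow 2 G, T ≠ c := by
    by_contra hno
    push Not at hno
    haveI : Subsingleton (Sylow 2 G) := ⟨fun a b => (hno a).symm.trans (hno b)⟩
    exact hnn (Sylow.normal_of_subsingleton T)
  obtain ⟨c, hTc⟩ := hnt
  have hcardΩ : Nat.card (Sylow 2 G) = Nat.card (T : Subgroup G) + 1 := hTS.card_pts hTc
  haveI : Fintype (Sylow 2 G) := Fintype.ofFinite _
  have hcardΩ' : Fintype.card (Sylow 2 G) = Nat.card (T : Subgroup G) + 1 := by
    rw [← Nat.card_eq_fintype_card, hcardΩ]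
  have htr : ∀ a b : Sylow 2 G, ∃ g : G, g • a = b := fun a b => MulAction.exists_smul_eq G a b
  let ρ : G →* Equiv.Perm (Sylow 2 G) := MulAction.toPermHom G (Sylow 2 G)
  have hρ : ∀ (g : G) (x : Sylow 2 G), ρ g x = g • x := fun g x => rfl
  obtain ⟨a₀, b₀, c₀, h1, h2, h3⟩ := Fintype.two_lt_card_iff.mp (by omega : 2 < Fintype.card (Sylow 2 G))
  have hinj : Function.Injective ρ := by
    rw [injective_iff_map_eq_one]
    intro g hg
    have h4 : ∀ x : Sylow 2 G, g • x = x := fun x => by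
      rw [← hρ, hg]
      rfl
    exact hTS.eq_one h1 h2 h3 (h4 _) (h4 _) (h4 _)
  let G' : Subgroup (Equiv.Perm (Sylow 2 G)) := ρ.range
  have hact : ∀ (g : G') (x : Sylow 2 G), g • x = (g : Equiv.Perm (Sylow 2 G)) x := fun g x => rfl
  have h3t : MulAction.IsMultiplyPretransitive G' (Sylow 2 G) 3 := by
    refine ⟨fun x y => ?_⟩
    have hx : ∀ {i j : Fin 3}, i ≠ j → x i ≠ x j := fun h h' => h (x.injective h')
    have hy : ∀ {i j : Fin 3}, i ≠ j → y i ≠ y j := fun h h' => h (y.injective h')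
    obtain ⟨g, h4, h5, h6⟩ := hTS.three htr (hx (i := 0) (j := 1) (by decide)) (hx (i := 0) (j := 2) (by decide))
      (hx (i := 1) (j := 2) (by decide)) (hy (i := 0) (j := 1) (by decide)) (hy (i := 0) (j := 2) (by decide))
      (hy (i := 1) (j := 2) (by decide))
    refine ⟨⟨ρ g, g, rfl⟩, ?_⟩
    refine Function.Embedding.ext (fun i => ?_)
    fin_cases i
    · exact h4
    · exact h5
    · exact h6
  have hfix : ∀ g : G', 3 ≤ Nat.card (MulAction.fixedBy (Sylow 2 G) g) → g = 1 := by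
    rintro ⟨_, g, rfl⟩ hg
    haveI : Fintype (MulAction.fixedBy (Sylow 2 G) (⟨ρ g, g, rfl⟩ : G')) := Fintype.ofFinite _
    rw [Nat.card_eq_fintype_card] at hg
    obtain ⟨p, q, r, hpq, hpr, hqr⟩ := Fintype.two_lt_card_iff.mp (by omega : 2 < Fintype.card (MulAction.fixedBy (Sylow 2 G) (⟨ρ g, g, rfl⟩ : G')))
    have hp : g • (p : Sylow 2 G) = p := p.2
    have hq' : g • (q : Sylow 2 G) = q := q.2
    have hr : g • (r : Sylow 2 G) = r := r.2
    have h4 := hTS.eq_one (fun h => hpq (Subtype.ext h)) (fun h => hpr (Subtype.ext h)) (fun h => hqr (Subtype.ext h)) hp hq' hr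
    have h5 : ρ g = 1 := by rw [h4, map_one]
    exact Subtype.ext h5
  have hodd : Odd (Fintype.card (Sylow 2 G)) := by
    rw [hcardΩ']
    obtain ⟨k, hk⟩ := IsPGroup.iff_card.mp T.isPGroup'
    rw [hk] at hq ⊢
    rcases k with _ | k
    · simp at hq
    · rw [pow_succ]
      exact ⟨2 ^ k, by ring⟩
  obtain ⟨k, hk1, hk2, F, iF, fF, hF, ⟨e⟩⟩ := H22.sharp3_main (by omega) hodd G' h3t hfix
  refine ⟨F, iF, fF, ?_, ?_⟩
  · have : Nat.card (T : Subgroup G) = Nat.card T := rfl
    omega
  · haveI : CharP F 2 := by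
      obtain ⟨j, hj⟩ : ∃ j, k = j + 1 := ⟨k - 1, by omega⟩
      exact charP_of_card_eq_prime_pow (f := k) (by rw [hF])
    let e0 : G ≃* G' := MonoidHom.ofInjective hinj
    exact ⟨(e0.trans e).trans H08.L2.pslEquiv⟩

end Cfsg.Agent.H05.PR5
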