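import Cfsg.Agent.Lib.H05.PComp5
import Cfsg.Agent.Lib.H13.CoprimeGen2
import Cfsg.Agent.Lib.H06.CoprimeCoset
import Cfsg.Agent.Lib.H01.Basic
import Cfsg.Agent.Lib.H17.PrimeGraph
import Cfsg.Agent.Lib.H18.Prod
import Cfsg.Prelude.Def_Balance

/-!
# Coprime action of elementary abelian groups and signalizer functors
-/

set_option autoImplicit false
set_option linter.style.haveILetI false
set_option linter.unusedSectionVars false

namespace Cfsg.Agent.H05

open Subgroup Cfsg
open scoped commutatorElement Pointwise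

section gen
variable {G : Type*} [Group G] {p : ℕ}

/-- Hyperplanes of `U` (and `U` itself). -/
def hypFam (U : Subgroup G) : Set (Subgroup G) :=
  {B | B ≤ U ∧ (B = U ∨ IsCoatom (B.subgroupOf U))}

theorem elem_of_le {A B : Subgroup G} (hA : IsElementaryAbelian p A) (hB : B ≤ A) :
    IsElementaryAbelian p B := by
  refine ⟨⟨⟨fun x y => ?_⟩⟩, fun a ha => hA.2 a (hB ha)⟩
  apply Subtype.ext
  have := hA.1.is_comm.comm (⟨x, hB x.2⟩ : A) ⟨y, hB y.2⟩
  exact congrArg (fun z : A => (z : G)) this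

variable [Finite G] [hp : Fact p.Prime]

theorem card_coprime_of_not_dvd {X : Subgroup G} (h : ¬ p ∣ Nat.card X) : (Nat.card X).Coprime p :=
  (Nat.Coprime.symm ((Nat.Prime.coprime_iff_not_dvd hp.out).mpr h))

theorem centralizer_le_of_sup_zpowers {C : Subgroup G} {x : G} {y : G} (h1 : y ∈ centralizer (C : Set G))
    (h2 : y ∈ centralizer ({x} : Set G)) : y ∈ centralizer ((C ⊔ zpowers x : Subgroup G) : Set G) := by
  have h3 : C ⊔ zpowers x ≤ centralizer ({y} : Set G) := by
    apply sup_le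
    · intro c hc
      rw [mem_centralizer_singleton_iff]
      exact ((mem_centralizer_iff.mp h1) c hc)
    · rw [zpowers_le, mem_centralizer_singleton_iff]
      exact ((mem_centralizer_iff.mp h2) x rfl)
  rw [mem_centralizer_iff]
  intro w hw
  exact (mem_centralizer_singleton_iff.mp (h3 hw))

/-- Generation: all of `Z ⊓ C(C)` lies in the join of the `Z ⊓ C(B)`, `B` a hyperplane of `U`
above `C` (or `U`). -/
theorem fix_le_hyp {U Z : Subgroup G} (hU : IsElementaryAbelian p U) (hZ : (Nat.card Z).Coprime p)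
    (hUZ : U ≤ normalizer (Z : Set G)) :
    ∀ (n : ℕ) (C : Subgroup G), Nat.card U - Nat.card C = n → C ≤ U →
      Z ⊓ centralizer (C : Set G) ≤ ⨆ B : {B : Subgroup G // B ∈ hypFam U ∧ C ≤ B},
        Z ⊓ centralizer ((B : Subgroup G) : Set G) := by
  have hpp : p.Prime := hp.out
  intro n
  induction n using Nat.strong_induction_on with
  | _ n ih =>
  intro C hn hCU
  by_cases hbase : C ∈ hypFam U
  · exact le_iSup (fun B : {B : Subgroup G // B ∈ hypFam U ∧ C ≤ B} =>
      Z ⊓ centralizer ((B : Subgroup G) : Set G)) ⟨C, hbase, le_rfl⟩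
  have hCne : C ≠ U := fun h => hbase ⟨hCU, Or.inl h⟩
  have hco : ¬ IsCoatom (C.subgroupOf U) := fun h => hbase ⟨hCU, Or.inr h⟩
  have hCtop : C.subgroupOf U ≠ ⊤ := by
    intro h
    apply hCne
    apply le_antisymm hCU
    intro u hu
    have : (⟨u, hu⟩ : U) ∈ C.subgroupOf U := by rw [h]; trivial
    exact this
  obtain ⟨hcomm, hpow⟩ := hU
  have hcomm' : ∀ x ∈ U, ∀ y ∈ U, Commute x y := fun x hx y hy =>
    congrArg Subtype.val (hcomm.is_comm.comm (⟨x, hx⟩ : U) ⟨y, hy⟩)
  obtain ⟨Y', hXY', hY'top⟩ : ∃ Y' : Subgroup U, C.subgroupOf U < Y' ∧ Y' < ⊤ := by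
    by_contra hcon
    push Not at hcon
    apply hco
    refine ⟨hCtop, fun b hb => ?_⟩
    by_contra hbtop
    exact hcon b hb (lt_top_iff_ne_top.mpr hbtop) |>.elim
  obtain ⟨a', ha'Y, ha'X⟩ := SetLike.exists_of_lt hXY'
  obtain ⟨b', -, hb'Y⟩ := SetLike.exists_of_lt hY'top
  set a : G := (a' : G) with ha
  set b : G := (b' : G) with hb
  have haU : a ∈ U := a'.2
  have hbU : b ∈ U := b'.2
  have hab : Commute a b := hcomm' a haU b hbU
  have hap : a ^ p = 1 := hpow a haU
  have hbp : b ^ p = 1 := hpow b hbU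
  have hLU : ∀ x ∈ H13.lineElts p a b, x ∈ U := by
    rintro x (rfl | ⟨i, _, rfl⟩)
    · exact hbU
    · exact U.mul_mem haU (U.pow_mem hbU i)
  have hLX : ∀ x ∈ H13.lineElts p a b, x ∉ C := by
    rintro x (rfl | ⟨i, hi, rfl⟩) hx
    · exact hb'Y (hXY'.le (show b' ∈ C.subgroupOf U from hx))
    · have h1 : a' * b' ^ i ∈ C.subgroupOf U := hx
      have h2 : b' ^ i ∈ Y' := by
        have h3 := Y'.mul_mem (Y'.inv_mem ha'Y) (hXY'.le h1)
        simpa using h3
      rcases Nat.eq_zero_or_pos i with h0 | hipos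
      · rw [h0, pow_zero, mul_one] at h1
        exact ha'X h1
      · have hcop : Nat.Coprime i p := by
          apply Nat.Coprime.symm
          rw [Nat.Prime.coprime_iff_not_dvd hpp]
          intro hd
          have := Nat.le_of_dvd hipos hd
          omega
        have h4 : b' ^ p = 1 := Subtype.ext hbp
        obtain ⟨k, -, hk⟩ := Nat.exists_mul_mod_eq_one_of_coprime hcop hpp.one_lt
        have h5 : b' = (b' ^ i) ^ k := by
          rw [← pow_mul, pow_eq_pow_mod (i * k) h4, hk, pow_one]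
        apply hb'Y
        rw [h5]
        exact Y'.pow_mem h2 k
  set R := Z ⊓ centralizer (C : Set G) with hR
  have hUR : U ≤ normalizer (R : Set G) := by
    intro u hu
    apply H13.mem_normalizer_inf (hUZ hu)
    rw [mem_normalizer_iff]
    intro w
    have hu' : ∀ c ∈ C, Commute u c := fun c hc => hcomm' u hu c (hCU hc)
    constructor
    · intro hw
      rw [mem_centralizer_iff] at hw ⊢
      intro c hc
      have h1 := hw c hc
      have h2 := (hu' c hc).eq
      have : c * (u * w * u⁻¹) = u * (c * w) * u⁻¹ := by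
        rw [show c * (u * w * u⁻¹) = (c * u) * w * u⁻¹ by group, ← h2]; group
      rw [this, h1]
      rw [show u * (w * c) * u⁻¹ = u * w * (c * u⁻¹) by group]
      have h3 : c * u⁻¹ = u⁻¹ * c := by
        have := (hu' c hc).inv_left.eq
        exact this.symm
      rw [h3]; group
    · intro hw
      rw [mem_centralizer_iff] at hw ⊢
      intro c hc
      have h1 := hw c hc
      have h2 := (hu' c hc).eq
      have : u * (c * w) * u⁻¹ = c * (u * w * u⁻¹) := by
        rw [show c * (u * w * u⁻¹) = (c * u) * w * u⁻¹ by group, ← h2]; group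
      have h4 : u * (c * w) * u⁻¹ = u * (w * c) * u⁻¹ := by
        rw [this, h1]
        rw [show u * (w * c) * u⁻¹ = u * w * (c * u⁻¹) by group]
        have h3 : c * u⁻¹ = u⁻¹ * c := by
          have := (hu' c hc).inv_left.eq
          exact this.symm
        rw [h3]; group
      exact mul_left_cancel (mul_right_cancel h4)
  have hRc : (Nat.card R).Coprime p :=
    Nat.Coprime.coprime_dvd_left (Subgroup.card_dvd_of_le inf_le_left) hZ
  have hfR : H13.fixGen p a b R = R := H13.fixGen_eq hRc hab hap hbp (hUR haU) (hUR hbU)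
  show R ≤ _
  rw [← hfR]
  refine iSup_le ?_
  rintro ⟨x, hxL⟩
  have hxU := hLU x hxL
  have hxX := hLX x hxL
  set C₂ := C ⊔ zpowers x with hC₂
  have hC₂U : C₂ ≤ U := sup_le hCU (by rwa [zpowers_le])
  have hCC₂ : C ≤ C₂ := le_sup_left
  have hlt : Nat.card C < Nat.card C₂ := by
    apply lt_of_le_of_ne (Subgroup.card_le_of_le hCC₂)
    intro h
    have h6 : C = C₂ := Subgroup.eq_of_le_of_card_ge hCC₂ h.ge
    apply hxX
    rw [h6]
    exact Subgroup.mem_sup_right (Subgroup.mem_zpowers x)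
  have hltU : Nat.card U - Nat.card C₂ < n := by
    have h7 : Nat.card C₂ ≤ Nat.card U := Subgroup.card_le_of_le hC₂U
    omega
  have IH := ih _ hltU C₂ rfl hC₂U
  have hsub : R ⊓ centralizer ({x} : Set G) ≤ Z ⊓ centralizer (C₂ : Set G) := by
    rintro y ⟨⟨hyZ, hyC⟩, hyx⟩
    exact ⟨hyZ, centralizer_le_of_sup_zpowers hyC hyx⟩
  refine hsub.trans (IH.trans ?_)
  refine iSup_le ?_
  rintro ⟨B, hB, hCB⟩
  exact le_iSup (fun B : {B : Subgroup G // B ∈ hypFam U ∧ C ≤ B} =>
      Z ⊓ centralizer ((B : Subgroup G) : Set G)) ⟨B, hB, hCC₂.trans hCB⟩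

/-- Generation by fixed points of hyperplanes. -/
theorem gen_hyp {U Z : Subgroup G} (hU : IsElementaryAbelian p U) (hZ : (Nat.card Z).Coprime p)
    (hUZ : U ≤ normalizer (Z : Set G)) :
    Z = ⨆ B : hypFam U, Z ⊓ centralizer ((B : Subgroup G) : Set G) := by
  apply le_antisymm
  · have h1 := fix_le_hyp hU hZ hUZ _ ⊥ rfl bot_le
    have h2 : Z ⊓ centralizer ((⊥ : Subgroup G) : Set G) = Z := by
      apply inf_eq_left.mpr
      intro z _
      rw [mem_centralizer_iff]
      intro y hy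
      have : y = 1 := by simpa using hy
      simp [this]
    rw [h2] at h1
    refine h1.trans ?_
    refine iSup_le ?_
    rintro ⟨B, hB, -⟩
    exact le_iSup (fun B : hypFam U => Z ⊓ centralizer ((B : Subgroup G) : Set G)) ⟨B, hB⟩
  · exact iSup_le fun _ => inf_le_left

/-- A member of the hyperplane family has index at most `p`. -/
theorem relIndex_le_of_hypFam {U B : Subgroup G} (hU : IsElementaryAbelian p U) (hB : B ∈ hypFam U) :
    B.relIndex U ≤ p := by
  obtain ⟨hle, rfl | hco⟩ := hB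
  · rw [Subgroup.relIndex_self]; exact hp.out.one_lt.le
  · have hPU : IsPGroup p U := by
      intro x
      refine ⟨1, ?_⟩
      apply Subtype.ext
      simpa using hU.2 x x.2
    exact (H01.isCoatom_normal_index hPU hco).2.le

/-- In an elementary abelian group a subgroup of relative index `p` is a hyperplane. -/
theorem isCoatom_of_relIndex {U B : Subgroup G} (hB : B.relIndex U = p) :
    IsCoatom (B.subgroupOf U) := by
  have hidx : (B.subgroupOf U).index = p := hB
  constructor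
  · intro h
    rw [Subgroup.relIndex, h, Subgroup.index_top] at hB
    exact hp.out.one_lt.ne hB
  · intro K hK
    have h1 : K.index ∣ (B.subgroupOf U).index := Subgroup.index_dvd_of_le hK.le
    rw [hidx] at h1
    rcases (Nat.dvd_prime hp.out).mp h1 with h2 | h2
    · exact Subgroup.index_eq_one.mp h2
    · exfalso
      have h3 : (B.subgroupOf U).index = K.index := by rw [hidx, h2]
      have h4 := Subgroup.eq_of_le_of_card_ge hK.le (by
        have h5 := Subgroup.card_mul_index (B.subgroupOf U)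
        have h6 := Subgroup.card_mul_index K
        rw [← h5] at h6
        rw [h3] at h6
        have hpos : 0 < K.index := by
          rw [h2]; exact hp.out.pos
        exact (Nat.eq_of_mul_eq_mul_right hpos h6).le)
      exact hK.ne h4

/-- A hyperplane has relative index `p`. -/
theorem relIndex_eq_of_isCoatom {U B : Subgroup G} (hU : IsElementaryAbelian p U)
    (hco : IsCoatom (B.subgroupOf U)) : B.relIndex U = p := by
  have hPU : IsPGroup p U := by
    intro x
    refine ⟨1, ?_⟩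
    apply Subtype.ext
    simpa using hU.2 x x.2
  exact (H01.isCoatom_normal_index hPU hco).2

/-- If `Z ≠ D` then some hyperplane has fixed points of `Z` outside `D`. -/
theorem exists_hyp_not_le {U Z D : Subgroup G} (hU : IsElementaryAbelian p U) (hZ : (Nat.card Z).Coprime p)
    (hUZ : U ≤ normalizer (Z : Set G)) (h : ¬ Z ≤ D) :
    ∃ B ∈ hypFam U, ¬ Z ⊓ centralizer (B : Set G) ≤ D := by
  by_contra hcon
  push Not at hcon
  apply h
  rw [gen_hyp hU hZ hUZ]
  exact iSup_le fun B => hcon B B.2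

/-- Two members of the hyperplane family of a group of order at least `p ^ 3` meet nontrivially. -/
theorem exists_mem_inf_hyp {U B₁ B₂ : Subgroup G} (hU : IsElementaryAbelian p U) (hU3 : p ^ 3 ≤ Nat.card U)
    (h₁ : B₁ ∈ hypFam U) (h₂ : B₂ ∈ hypFam U) : ∃ a ∈ B₁ ⊓ B₂, a ≠ 1 := by
  by_contra hcon
  push Not at hcon
  have hbot : B₁ ⊓ B₂ = ⊥ := by
    rw [eq_bot_iff]
    intro x hx
    simpa using hcon x hx
  have h1 := relIndex_le_of_hypFam hU h₁
  have h2 := relIndex_le_of_hypFam hU h₂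
  have h3 : (B₁ ⊓ B₂).relIndex U ≤ B₁.relIndex U * B₂.relIndex U := by
    have e : (B₁ ⊓ B₂).subgroupOf U = B₁.subgroupOf U ⊓ B₂.subgroupOf U := rfl
    rw [Subgroup.relIndex, Subgroup.relIndex, Subgroup.relIndex, e]
    exact Subgroup.index_inf_le
  have h4 : (B₁ ⊓ B₂).relIndex U = Nat.card U := by
    rw [hbot, Subgroup.relIndex_bot_left]
  have h5 : Nat.card U ≤ p * p := by
    rw [← h4]
    exact h3.trans (Nat.mul_le_mul h1 h2)
  have h6 : p * p < p ^ 3 := by
    have hpp := hp.out.two_le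
    nlinarith
  omega

end gen

section fix
variable {G : Type*} [Group G] [Finite G] {p : ℕ}

/-- Fixed points of a coprime element on a product factor. -/
theorem fixed_factor {X Y : Subgroup G} (hYX : Y ≤ normalizer (X : Set G)) {a : G}
    (haX : ∀ x ∈ X, a * x * a⁻¹ ∈ X) (haY : ∀ y ∈ Y, a * y * a⁻¹ ∈ Y)
    (hcop : (orderOf a).Coprime (Nat.card Y)) {z : G} (hz : z ∈ X ⊔ Y) (hza : a * z = z * a) :
    ∃ x ∈ X, ∃ y ∈ Y, z = x * y ∧ a * x = x * a ∧ a * y = y * a := by
  obtain ⟨x, hx, y, hy, rfl⟩ := H01.exists_mul_of_mem_sup hYX hz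
  set N : Subgroup G := X ⊓ Y with hN
  have hNa : ∀ w ∈ N, a * w * a⁻¹ ∈ N := fun w hw =>
    Subgroup.mem_inf.mpr ⟨haX w (Subgroup.mem_inf.mp hw).1, haY w (Subgroup.mem_inf.mp hw).2⟩
  have hcopN : (orderOf a).Coprime (Nat.card N) :=
    Nat.Coprime.coprime_dvd_right (Subgroup.card_dvd_of_le inf_le_right) hcop
  have hyinv : y⁻¹ ∈ normalizer (X : Set G) := inv_mem (hYX hy)
  have hw : y⁻¹ * (a * y * a⁻¹) ∈ N := by
    constructor
    · have e2 : a * (x * y) * a⁻¹ = x * y := by rw [hza]; group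
      have h3 : (a * x * a⁻¹) * (a * y * a⁻¹) = x * y := by rw [← e2]; group
      have h4 : y⁻¹ * (a * y * a⁻¹) = y⁻¹ * ((a * x * a⁻¹)⁻¹ * (x * y)) := by
        rw [← h3]; group
      rw [h4]
      have h5 : y⁻¹ * ((a * x * a⁻¹)⁻¹ * (x * y)) = y⁻¹ * ((a * x * a⁻¹)⁻¹ * x) * y⁻¹⁻¹ := by group
      rw [h5]
      exact (mem_normalizer_iff.mp hyinv ((a * x * a⁻¹)⁻¹ * x)).mp
        (X.mul_mem (X.inv_mem (haX x hx)) hx)
    · exact Y.mul_mem (Y.inv_mem hy) (haY y hy)
  obtain ⟨n, hn, hcomm⟩ := H06.exists_fixed_of_coset hNa hcopN hw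
  have hxn : x * (y * n⁻¹ * y⁻¹) ∈ X := by
    apply X.mul_mem hx
    exact (mem_normalizer_iff.mp (hYX hy) n⁻¹).mp (X.inv_mem hn.1)
  refine ⟨x * (y * n⁻¹ * y⁻¹), hxn, y * n, Y.mul_mem hy hn.2, by group, ?_, hcomm.symm⟩
  have h7 : a * (y * n) = (y * n) * a := hcomm.symm
  have e : x * (y * n⁻¹ * y⁻¹) = (x * y) * (y * n)⁻¹ := by group
  rw [e]
  have h8 : a * (y * n)⁻¹ = (y * n)⁻¹ * a := by
    have := (Commute.inv_right (show Commute a (y * n) from h7)).eq
    exact this
  rw [← mul_assoc, hza, mul_assoc, h8]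
  simp only [mul_assoc]

end fix

section family
variable {G : Type*} [Group G] [Finite G] {p : ℕ} [hp : Fact p.Prime]

theorem orderOf_coprime_of_elem {A : Subgroup G} (hA : IsElementaryAbelian p A) {a : G} (ha : a ∈ A)
    {n : ℕ} (hn : ¬ p ∣ n) : (orderOf a).Coprime n := by
  have h1 : orderOf a ∣ p := orderOf_dvd_of_pow_eq_one (hA.2 a ha)
  rcases (Nat.dvd_prime hp.out).mp h1 with h | h
  · rw [h]; exact Nat.coprime_one_left n
  · rw [h]; exact (Nat.Prime.coprime_iff_not_dvd hp.out).mpr hn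

theorem normalizer_of_conj {H : Subgroup G} {a : G} (h : ∀ x ∈ H, a * x * a⁻¹ ∈ H) :
    a ∈ normalizer (H : Set G) := by
  rw [mem_normalizer_iff]
  intro x
  refine ⟨h x, fun hx => ?_⟩
  let f : H → H := fun y => ⟨a * y * a⁻¹, h y y.2⟩
  have hinj : Function.Injective f := by
    intro u v huv
    have h3 : a * (u : G) * a⁻¹ = a * (v : G) * a⁻¹ := congrArg Subtype.val huv
    apply Subtype.ext
    simpa using h3
  obtain ⟨y, hy⟩ := (Finite.injective_iff_surjective.mp hinj) ⟨a * x * a⁻¹, hx⟩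
  have h3 : a * (y : G) * a⁻¹ = a * x * a⁻¹ := congrArg Subtype.val hy
  have h4 : (y : G) = x := by simpa using h3
  exact h4 ▸ y.2

theorem mem_C {a y : G} : y ∈ centralizer ({a} : Set G) ↔ a * y = y * a := by
  rw [mem_centralizer_iff]; simp

theorem card_sup_mul_inf {X Y : Subgroup G} (hYX : Y ≤ normalizer (X : Set G)) :
    Nat.card (X ⊔ Y : Subgroup G) * Nat.card (X ⊓ Y : Subgroup G) = Nat.card X * Nat.card Y := by
  have hset : ((X ⊔ Y : Subgroup G) : Set G) = (X : Set G) * (Y : Set G) := by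
    ext z
    constructor
    · intro hz
      obtain ⟨x, hx, y, hy, rfl⟩ := H01.exists_mul_of_mem_sup hYX hz
      exact Set.mul_mem_mul hx hy
    · rintro ⟨x, hx, y, hy, rfl⟩
      exact mul_mem (mem_sup_left hx) (mem_sup_right hy)
  have h1 : Nat.card (X ⊔ Y : Subgroup G) = Nat.card ((X : Set G) * (Y : Set G) : Set G) :=
    Nat.card_congr (Equiv.setCongr hset)
  rw [h1]
  exact H18.card_set_mul_mul_card_inf X Y

variable {A : Subgroup G} {θ : G → Subgroup G}

theorem sf_le {X Y : Subgroup G} (hX : X ∈ signalizerFamily p A θ) (hYX : Y ≤ X)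
    (hY : ∀ b ∈ A, ∀ u ∈ Y, b * u * b⁻¹ ∈ Y) : Y ∈ signalizerFamily p A θ := by
  obtain ⟨h1, h2, h3, h4⟩ := hX
  refine ⟨H01.isSolvable_of_le hYX h1, ?_, hY, fun a ha ha1 => (inf_le_inf_right _ hYX).trans (h4 a ha ha1)⟩
  intro hd
  exact h2 (hd.trans (Subgroup.card_dvd_of_le hYX))

theorem sf_theta (hθ : IsSolvableSignalizerFunctor p A θ) {a : G} (ha : a ∈ A) (ha1 : a ≠ 1) :
    θ a ∈ signalizerFamily p A θ :=
  ⟨hθ.2 a ha ha1, hθ.1.2.1 a ha ha1, hθ.1.2.2.1 a ha ha1, fun b hb hb1 => hθ.1.2.2.2 a ha ha1 b hb hb1⟩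

theorem sf_card_coprime {X : Subgroup G} (hX : X ∈ signalizerFamily p A θ) : (Nat.card X).Coprime p :=
  card_coprime_of_not_dvd hX.2.1

theorem sf_normalizer {X : Subgroup G} (hX : X ∈ signalizerFamily p A θ) : A ≤ normalizer (X : Set G) :=
  fun _ hb => normalizer_of_conj (hX.2.2.1 _ hb)

/-- S1280 (no use of the functor properties needed). -/
theorem sf_sup (hA : IsElementaryAbelian p A) {X Y : Subgroup G} (hX : X ∈ signalizerFamily p A θ)
    (hY : Y ∈ signalizerFamily p A θ) (hn : Y ≤ normalizer (X : Set G)) :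
    X ⊔ Y ∈ signalizerFamily p A θ := by
  refine ⟨H17.sol_sup X Y hn hX.1 hY.1, ?_, ?_, ?_⟩
  · have h1 := card_sup_mul_inf hn
    intro hd
    have h2 : p ∣ Nat.card X * Nat.card Y := by
      rw [← h1]; exact hd.trans (dvd_mul_right _ _)
    rcases (hp.out.dvd_mul).mp h2 with h | h
    · exact hX.2.1 h
    · exact hY.2.1 h
  · intro b hb u hu
    obtain ⟨x, hx, y, hy, rfl⟩ := H01.exists_mul_of_mem_sup hn hu
    have e : b * (x * y) * b⁻¹ = (b * x * b⁻¹) * (b * y * b⁻¹) := by group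
    rw [e]
    exact mul_mem (mem_sup_left (hX.2.2.1 b hb x hx)) (mem_sup_right (hY.2.2.1 b hb y hy))
  · intro a ha ha1 z hz0
    obtain ⟨hz, hza⟩ := Subgroup.mem_inf.mp hz0
    have hza' : a * z = z * a := mem_C.mp hza
    obtain ⟨x, hx, y, hy, rfl, hxa, hya⟩ := fixed_factor hn (hX.2.2.1 a ha) (hY.2.2.1 a ha)
      (orderOf_coprime_of_elem hA ha hY.2.1) hz hza'
    refine mul_mem ?_ ?_
    · exact hX.2.2.2 a ha ha1 (Subgroup.mem_inf.mpr ⟨hx, mem_C.mpr hxa⟩)
    · exact hY.2.2.2 a ha ha1 (Subgroup.mem_inf.mpr ⟨hy, mem_C.mpr hya⟩)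

/-- S1281. -/
theorem sf_quot (hA : IsElementaryAbelian p A) (hθ : IsSolvableSignalizerFunctor p A θ) (N : Subgroup G)
    [hN : N.Normal] (hNc : ¬ p ∣ Nat.card N) {a b : G} (ha : a ∈ A) (ha1 : a ≠ 1) (hb : b ∈ A) (hb1 : b ≠ 1) :
    (θ a).map (QuotientGroup.mk' N) ⊓ centralizer {QuotientGroup.mk' N b} ≤ (θ b).map (QuotientGroup.mk' N) := by
  intro z hz
  obtain ⟨hz1, hc⟩ := Subgroup.mem_inf.mp hz
  obtain ⟨x, hx, rfl⟩ := hz1
  have hc' : QuotientGroup.mk' N b * QuotientGroup.mk' N x = QuotientGroup.mk' N x * QuotientGroup.mk' N b :=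
    mem_C.mp hc
  have hb2 : ∀ y ∈ θ a, b * y * b⁻¹ ∈ θ a := hθ.1.2.2.1 a ha ha1 b hb
  set N₀ := N ⊓ θ a with hN₀
  have hcop : (orderOf b).Coprime (Nat.card N₀) :=
    orderOf_coprime_of_elem hA hb (fun h => hNc (h.trans (Subgroup.card_dvd_of_le inf_le_left)))
  have hw : x⁻¹ * (b * x * b⁻¹) ∈ N₀ := by
    refine Subgroup.mem_inf.mpr ⟨?_, mul_mem (inv_mem hx) (hb2 x hx)⟩
    rw [← QuotientGroup.eq_one_iff, ← QuotientGroup.mk'_apply, map_mul, map_inv, map_mul, map_mul, map_inv, hc']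
    group
  obtain ⟨n, hn, hcomm⟩ := H06.exists_fixed_of_coset
    (fun y hy => Subgroup.mem_inf.mpr ⟨hN.conj_mem y (Subgroup.mem_inf.mp hy).1 b, hb2 y (Subgroup.mem_inf.mp hy).2⟩) hcop hw
  refine ⟨x * n, hθ.1.2.2.2 a ha ha1 b hb hb1 (Subgroup.mem_inf.mpr ⟨mul_mem hx (Subgroup.mem_inf.mp hn).2, mem_C.mpr hcomm.symm.eq⟩), ?_⟩
  · rw [map_mul]
    have : QuotientGroup.mk' N n = 1 := by
      rw [QuotientGroup.mk'_apply, QuotientGroup.eq_one_iff]; exact (Subgroup.mem_inf.mp hn).1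
    rw [this, mul_one]

end family

end Cfsg.Agent.H05
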