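import Cfsg.Agent.Lib.H05.Sig
import Cfsg.Agent.Lib.H15.PConstr
import Cfsg.Agent.S1282

/-!
# Signalizer functors: transitivity
-/

set_option autoImplicit false
set_option linter.style.haveILetI false
set_option linter.unusedSectionVars false

namespace Cfsg.Agent.H05

open Subgroup Cfsg
open scoped commutatorElement Pointwise

section basic
variable {G : Type*} [Group G]

theorem layer_eq_bot_of_solvable [Finite G] (h : Group.IsSolvable G) : layer G = ⊥ := by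
  rw [eq_bot_iff]
  refine sSup_le fun L hL => ?_
  exfalso
  exact qs_not_solvable hL.2 inferInstance

/-- conjugation by an element normalizing `K`, as an automorphism of `K`. -/
theorem exists_conj_aut {K : Subgroup G} {a : G} (ha : a ∈ normalizer (K : Set G)) :
    ∃ φ : K ≃* K, ∀ x : K, ((φ x : K) : G) = a * x * a⁻¹ :=
  ⟨K.normalizerMonoidHom ⟨a, ha⟩, fun _ => rfl⟩

theorem normalizer_map_of_invariant [Finite G] {K : Subgroup G} {C : Subgroup K} {a : G}
    (ha : a ∈ normalizer (K : Set G)) (h : ∀ φ : K ≃* K, ∀ x ∈ C, φ x ∈ C) :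
    a ∈ normalizer ((C.map K.subtype : Subgroup G) : Set G) := by
  apply normalizer_of_conj
  rintro _ ⟨x, hx, rfl⟩
  obtain ⟨φ, hφ⟩ := exists_conj_aut ha
  exact ⟨φ x, h φ x hx, hφ x⟩

theorem pp_map_normalizer [Finite G] (q : ℕ) {K : Subgroup G} {a : G} (ha : a ∈ normalizer (K : Set G)) :
    a ∈ normalizer (((pPrimeCore q K).map K.subtype : Subgroup G) : Set G) := by
  apply normalizer_map_of_invariant ha
  intro φ x hx
  have hc := H06.pPrimeCore_characteristic K q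
  rw [Subgroup.characteristic_iff_map_le] at hc
  exact hc φ ⟨x, hx, rfl⟩

theorem ppp_map_normalizer [Finite G] (q : ℕ) [Fact q.Prime] {K : Subgroup G} {a : G}
    (ha : a ∈ normalizer (K : Set G)) :
    a ∈ normalizer (((pPrimePCore q K).map K.subtype : Subgroup G) : Set G) := by
  apply normalizer_map_of_invariant ha
  intro φ x hx
  exact H15.map_pPrimePCore_mem φ hx

theorem selfcent_of_solvable [Finite G] {q : ℕ} [Fact q.Prime] (h : Group.IsSolvable G) :
    centralizer ((pCore q (G ⧸ pPrimeCore q G) : Subgroup (G ⧸ pPrimeCore q G)) : Set (G ⧸ pPrimeCore q G))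
      ≤ pCore q (G ⧸ pPrimeCore q G) := by
  haveI := pp_normal (G := G) q
  have hs : Group.IsSolvable (G ⧸ pPrimeCore q G) := inferInstance
  have h1 := (fitting_selfcent_iff (G := G ⧸ pPrimeCore q G)).mpr (layer_eq_bot_of_solvable hs)
  have hF : fittingSubgroup (G ⧸ pPrimeCore q G) = pCore q (G ⧸ pPrimeCore q G) :=
    fitting_eq_pCore_of_pp_bot pp_quotient_eq_bot
  rwa [hF] at h1

end basic

section gen
variable {H : Type*} [Group H] [Finite H] {p : ℕ} [hp : Fact p.Prime]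

/-- The core of S1288. -/
theorem le_pp_of_fix {A K U : Subgroup H} {q : ℕ} [hq : Fact q.Prime] (hA : IsElementaryAbelian p A)
    (hKc : (Nat.card K).Coprime p) (hKs : Group.IsSolvable K) (hAK : A ≤ normalizer (K : Set H))
    (hUK : U ≤ K) (hUq : (Nat.card U).Coprime q)
    (hcomm : ∀ B ∈ hypFam A, ∀ u ∈ U, ∀ t ∈ K ⊓ centralizer (B : Set H), (orderOf ⁅u, t⁆).Coprime q) :
    U ≤ (pPrimeCore q K).map K.subtype := by
  haveI hOn := pp_normal (G := K) q
  set O := pPrimeCore q K with hO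
  set f := QuotientGroup.mk' O with hf
  set Qb := pCore q (K ⧸ O) with hQb
  haveI hQbn : Qb.Normal := H01.pCore_normal q
  have hQbp : IsPGroup q Qb := H01.pCore_isPGroup q
  have hC : centralizer (Qb : Set (K ⧸ O)) ≤ Qb := selfcent_of_solvable hKs
  set Y : Subgroup H := (pPrimePCore q K).map K.subtype with hY
  have hYK : Y ≤ K := by
    rintro _ ⟨x, _, rfl⟩
    exact x.2
  have hYc : (Nat.card Y).Coprime p := Nat.Coprime.coprime_dvd_left (Subgroup.card_dvd_of_le hYK) hKc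
  have hAY : A ≤ normalizer (Y : Set H) := fun a ha => ppp_map_normalizer q (hAK ha)
  have hgen := gen_hyp hA hYc hAY
  intro u hu
  set u' : K := ⟨u, hUK hu⟩ with hu'
  set W : Subgroup H := ((centralizer ({f u'} : Set (K ⧸ O))).comap f).map K.subtype with hW
  have hYW : Y ≤ W := by
    rw [hgen]
    refine iSup_le ?_
    rintro ⟨B, hB⟩ t ht
    obtain ⟨htY, htB⟩ := Subgroup.mem_inf.mp ht
    have htK := hYK htY
    set t' : K := ⟨t, htK⟩ with ht'
    refine ⟨t', ?_, rfl⟩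
    have htq : f t' ∈ Qb := by
      obtain ⟨x, hx, hxt⟩ := htY
      have : x = t' := Subtype.ext hxt
      rw [← this]
      exact hx
    have h1 : f ⁅u', t'⁆ ∈ Qb := by
      rw [map_commutatorElement, commutatorElement_def]
      exact mul_mem (hQbn.conj_mem _ htq _) (inv_mem htq)
    have h2 : (orderOf ⁅u, t⁆).Coprime q :=
      hcomm B hB u hu t (Subgroup.mem_inf.mpr ⟨htK, htB⟩)
    have h3 : orderOf ⁅u', t'⁆ = orderOf ⁅u, t⁆ := by
      rw [← Subgroup.orderOf_coe]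
      rfl
    have h4 : (orderOf (f ⁅u', t'⁆)).Coprime q :=
      Nat.Coprime.coprime_dvd_left (orderOf_map_dvd f _) (h3 ▸ h2)
    have h5 := eq_one_of_coprime_of_pGroup hQbp h1 h4
    rw [map_commutatorElement, commutatorElement_eq_one_iff_mul_comm] at h5
    show f t' ∈ centralizer ({f u'} : Set (K ⧸ O))
    exact mem_C.mpr h5
  have h6 : f u' ∈ centralizer (Qb : Set (K ⧸ O)) := by
    rw [mem_centralizer_iff]
    intro c hc
    obtain ⟨y, rfl⟩ := QuotientGroup.mk'_surjective O c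
    have hy : (y : H) ∈ W := hYW ⟨y, hc, rfl⟩
    obtain ⟨z, hz, hzy⟩ := hy
    have : z = y := Subtype.ext hzy
    rw [this] at hz
    exact (mem_C.mp hz).symm
  have h7 := hC h6
  have hu'o : (orderOf u').Coprime q := by
    have h8 : orderOf u' = orderOf u := by
      rw [← Subgroup.orderOf_coe]
    have h9 : orderOf u ∣ Nat.card U := by
      have := orderOf_dvd_natCard (⟨u, hu⟩ : U)
      rwa [Subgroup.orderOf_mk] at this
    rw [h8]
    exact Nat.Coprime.coprime_dvd_left h9 hUq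
  have h10 := eq_one_of_coprime_of_pGroup hQbp h7
    (Nat.Coprime.coprime_dvd_left (orderOf_map_dvd f _) hu'o)
  rw [hf, QuotientGroup.mk'_apply, QuotientGroup.eq_one_iff] at h10
  exact ⟨u', h10, rfl⟩

theorem exists_hyp_of_ne_bot {A : Subgroup H} (hA : A ≠ ⊥) :
    ∃ B : Subgroup H, B ≤ A ∧ IsCoatom (B.subgroupOf A) := by
  have hBtop : (⊥ : Subgroup A) ≠ ⊤ := by
    intro h
    apply hA
    rw [eq_bot_iff]
    intro x hx
    have : (⟨x, hx⟩ : A) ∈ (⊥ : Subgroup A) := h ▸ Subgroup.mem_top _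
    simpa using this
  obtain h | ⟨K, hK, -⟩ := eq_top_or_exists_le_coatom (⊥ : Subgroup A)
  · exact absurd h hBtop
  · refine ⟨K.map A.subtype, ?_, ?_⟩
    · rintro _ ⟨y, _, rfl⟩
      exact y.2
    · have e : (K.map A.subtype).subgroupOf A = K := by
        ext y
        constructor
        · rintro ⟨z, hz, hzy⟩
          have : z = y := Subtype.ext hzy
          rwa [← this]
        · intro hy
          exact ⟨y, hy, rfl⟩
      rwa [e]

end gen

section trans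
variable {G : Type*} [Group G] [Finite G] {p : ℕ} [hp : Fact p.Prime] {A : Subgroup G} {θ : G → Subgroup G}

theorem mem_sigInf {B : Subgroup G} {x : G} : x ∈ signalizerInf B θ ↔ ∀ a ∈ B, a ≠ 1 → x ∈ θ a := by
  rw [signalizerInf, Subgroup.mem_iInf]
  exact ⟨fun h a ha ha1 => h ⟨a, ha, ha1⟩, fun h a => h a.1 a.2.1 a.2.2⟩

theorem sigInf_comm (hθ : IsSignalizerFunctor p A θ) {B : Subgroup G} (hB : B ≤ A) {x : G}
    (hx : x ∈ signalizerInf B θ) {b : G} (hb : b ∈ B) : b * x = x * b := by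
  by_cases hb1 : b = 1
  · simp [hb1]
  · exact mem_C.mp (hθ.1 b (hB hb) hb1 (mem_sigInf.mp hx b hb hb1))

theorem mem_sigInf_of (hθ : IsSignalizerFunctor p A θ) {B : Subgroup G} (hB : B ≤ A) {a x : G}
    (ha : a ∈ A) (ha1 : a ≠ 1) (hx : x ∈ θ a) (hc : ∀ b ∈ B, b * x = x * b) : x ∈ signalizerInf B θ := by
  rw [mem_sigInf]
  intro b hb hb1
  exact hθ.2.2.2 a ha ha1 b (hB hb) hb1 (Subgroup.mem_inf.mpr ⟨hx, mem_C.mpr (hc b hb)⟩)

/-- A conjugate of a member of the family by `C_θ(A)` is in the family. -/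
theorem sf_conj (hθ : IsSignalizerFunctor p A θ) {c : G} (hc : c ∈ signalizerInf A θ)
    {X : Subgroup G} (hX : X ∈ signalizerFamily p A θ) :
    X.map (MulAut.conj c).toMonoidHom ∈ signalizerFamily p A θ := by
  have hcA : ∀ b ∈ A, b * c = c * b := fun b hb => sigInf_comm hθ le_rfl hc hb
  refine ⟨?_, ?_, ?_, ?_⟩
  · haveI := hX.1
    exact Group.isSolvable_of_surjective
      (f := (X.equivMapOfInjective (MulAut.conj c).toMonoidHom (MulAut.conj c).injective).toMonoidHom)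
      (X.equivMapOfInjective (MulAut.conj c).toMonoidHom (MulAut.conj c).injective).surjective
  · rw [Nat.card_congr (X.equivMapOfInjective _ (MulAut.conj c).injective).symm.toEquiv]
    exact hX.2.1
  · rintro b hb _ ⟨u, hu, rfl⟩
    refine ⟨b * u * b⁻¹, hX.2.2.1 b hb u hu, ?_⟩
    simp only [MulEquiv.coe_toMonoidHom, MulAut.conj_apply]
    have h1 := hcA b hb
    have h2 : c⁻¹ * b = b * c⁻¹ := by
      have := (Commute.inv_right (show Commute b c from h1)).eq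
      exact this.symm
    calc c * (b * u * b⁻¹) * c⁻¹ = (c * b) * u * (c * b)⁻¹ := by group
      _ = (b * c) * u * (b * c)⁻¹ := by rw [h1]
      _ = b * (c * u * c⁻¹) * b⁻¹ := by group
  · intro a ha ha1 y hy
    obtain ⟨hy1, hy2⟩ := Subgroup.mem_inf.mp hy
    obtain ⟨u, hu, rfl⟩ := hy1
    have hca := hcA a ha
    have hy3 : a * (c * u * c⁻¹) = (c * u * c⁻¹) * a := mem_C.mp hy2
    have hua : a * u = u * a := by
      have h2 : c * (a * u) * c⁻¹ = c * (u * a) * c⁻¹ := by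
        have e1 : c * (a * u) * c⁻¹ = (c * a) * u * c⁻¹ := by group
        have e2 : c * (u * a) * c⁻¹ = c * u * (a * c⁻¹) := by group
        have h3 : c⁻¹ * a = a * c⁻¹ := by
          have := (Commute.inv_right (show Commute a c from hca)).eq
          exact this.symm
        rw [e1, e2, ← hca, ← h3]
        calc a * c * u * c⁻¹ = a * (c * u * c⁻¹) := by group
          _ = c * u * c⁻¹ * a := hy3
          _ = c * u * (c⁻¹ * a) := by group
      exact mul_left_cancel (mul_right_cancel h2)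
    have h4 : u ∈ θ a := hX.2.2.2 a ha ha1 (Subgroup.mem_inf.mpr ⟨hu, mem_C.mpr hua⟩)
    have h5 : c ∈ θ a := mem_sigInf.mp hc a ha ha1
    simp only [MulEquiv.coe_toMonoidHom, MulAut.conj_apply]
    exact mul_mem (mul_mem h5 h4) (inv_mem h5)

/-- Maximal `q`-subgroups of the family. -/
def IsMaxQ (p : ℕ) (A : Subgroup G) (θ : G → Subgroup G) (q : ℕ) (Q : Subgroup G) : Prop :=
  Q ∈ signalizerFamily p A θ ∧ IsPGroup q Q ∧
    ∀ R ∈ signalizerFamily p A θ, IsPGroup q R → Q ≤ R → R = Q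

theorem exists_maxQ {q : ℕ} {R : Subgroup G} (hR : R ∈ signalizerFamily p A θ) (hq : IsPGroup q R) :
    ∃ Q, R ≤ Q ∧ IsMaxQ p A θ q Q := by
  let S : Set (Subgroup G) := {Q | Q ∈ signalizerFamily p A θ ∧ IsPGroup q Q}
  obtain ⟨Q, hRQ, hQ⟩ := S.toFinite.exists_le_maximal (a := R) ⟨hR, hq⟩
  refine ⟨Q, hRQ, hQ.prop.1, hQ.prop.2, fun T hT hTq hQT => ?_⟩
  exact le_antisymm (hQ.2 ⟨hT, hTq⟩ hQT) hQT

theorem maxQ_conj (hθ : IsSignalizerFunctor p A θ) {q : ℕ} {c : G} (hc : c ∈ signalizerInf A θ)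
    {Q : Subgroup G} (hQ : IsMaxQ p A θ q Q) : IsMaxQ p A θ q (Q.map (MulAut.conj c).toMonoidHom) := by
  have hcinv : c⁻¹ ∈ signalizerInf A θ := inv_mem hc
  refine ⟨sf_conj hθ hc hQ.1, ?_, ?_⟩
  · exact hQ.2.1.map _
  · intro R hR hRq hle
    have h1 := sf_conj hθ hcinv hR
    have h2 : IsPGroup q (R.map (MulAut.conj c⁻¹).toMonoidHom) := hRq.map _
    have h3 : Q ≤ R.map (MulAut.conj c⁻¹).toMonoidHom := by
      intro x hx
      refine ⟨c * x * c⁻¹, hle ⟨x, hx, rfl⟩, ?_⟩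
      simp only [MulEquiv.coe_toMonoidHom, MulAut.conj_apply]
      group
    have h4 := hQ.2.2 _ h1 h2 h3
    apply le_antisymm _ hle
    intro y hy
    have : c⁻¹ * y * c ∈ Q := by
      rw [← h4]
      exact ⟨y, hy, by simp only [MulEquiv.coe_toMonoidHom, MulAut.conj_apply]; group⟩
    exact ⟨_, this, by simp only [MulEquiv.coe_toMonoidHom, MulAut.conj_apply]; group⟩

theorem map_conj_sylow {K : Subgroup G} {q : ℕ} [Fact q.Prime] (c : K) (P : Sylow q K) :
    ((MulAut.conj c • P : Sylow q K) : Subgroup K).map K.subtype =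
      ((P : Subgroup K).map K.subtype).map (MulAut.conj (c : G)).toMonoidHom := by
  ext x
  constructor
  · rintro ⟨y, hy, rfl⟩
    have hy' : y ∈ ((MulAut.conj c • P : Sylow q K) : Subgroup K) := hy
    rw [Sylow.pointwise_smul_def, Subgroup.mem_smul_pointwise_iff_exists] at hy'
    obtain ⟨w, hw, rfl⟩ := hy'
    exact ⟨w, ⟨w, hw, rfl⟩, rfl⟩
  · rintro ⟨_, ⟨w, hw, rfl⟩, rfl⟩
    refine ⟨c * w * c⁻¹, ?_, rfl⟩
    show _ ∈ ((MulAut.conj c • P : Sylow q K) : Subgroup K)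
    rw [Sylow.pointwise_smul_def, Subgroup.mem_smul_pointwise_iff_exists]
    exact ⟨w, hw, rfl⟩

theorem trans_aux (hA : IsElementaryAbelian p A) (hA3 : p ^ 3 ≤ Nat.card A)
    (hθ : IsSolvableSignalizerFunctor p A θ) {q : ℕ} [hq : Fact q.Prime] :
    ∀ (n : ℕ) (Q₁ Q₂ : Subgroup G), Nat.card G - Nat.card (Q₁ ⊓ Q₂ : Subgroup G) = n →
      IsMaxQ p A θ q Q₁ → IsMaxQ p A θ q Q₂ →
      ∃ c ∈ signalizerInf A θ, Q₁.map (MulAut.conj c).toMonoidHom = Q₂ := by
  have hfun := hθ.1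
  intro n
  induction n using Nat.strong_induction_on with
  | _ n ih =>
  intro Q₁ Q₂ hn h₁ h₂
  by_cases hD₁ : Q₁ ⊓ Q₂ = Q₁
  · refine ⟨1, one_mem _, ?_⟩
    rw [H13.map_conj_one]
    exact (h₁.2.2 Q₂ h₂.1 h₂.2.1 (inf_eq_left.mp hD₁)).symm
  by_cases hD₂ : Q₁ ⊓ Q₂ = Q₂
  · refine ⟨1, one_mem _, ?_⟩
    rw [H13.map_conj_one]
    exact h₂.2.2 Q₁ h₁.1 h₁.2.1 (inf_eq_right.mp hD₂)
  have hqp : q ≠ p := by
    rintro rfl
    apply hD₁
    have : Q₁ = ⊥ := by
      obtain ⟨k, hk⟩ := IsPGroup.iff_card.mp h₁.2.1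
      have hcoe := sf_card_coprime h₁.1
      rw [hk] at hcoe
      have h0 : k = 0 := by
        by_contra hk0
        have h2 := Nat.Coprime.coprime_dvd_left (dvd_pow_self q hk0) hcoe
        rw [Nat.coprime_self] at h2
        exact hq.out.one_lt.ne' h2
      rw [h0, pow_zero] at hk
      exact Subgroup.eq_bot_of_card_eq _ hk
    rw [this, bot_inf_eq]
  have hA₁ := sf_normalizer h₁.1
  have hA₂ := sf_normalizer h₂.1
  obtain ⟨a, ha, ha1, hT₁, hT₂⟩ := Cfsg.Agent.S1282.result p A hA hA3 q hqp Q₁ Q₂ h₁.2.1 h₂.2.1 hA₁ hA₂ hD₁ hD₂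
  set D := Q₁ ⊓ Q₂ with hD
  have hAD : A ≤ normalizer (D : Set G) := fun b hb => H13.mem_normalizer_inf (hA₁ hb) (hA₂ hb)
  have hDF : D ∈ signalizerFamily p A θ :=
    sf_le h₁.1 inf_le_left (fun b hb u hu => (mem_normalizer_iff.mp (hAD hb) u).mp hu)
  have hDq : IsPGroup q D := h₁.2.1.to_le inf_le_left
  have hAcomm : ∀ b ∈ A, ∀ b' ∈ A, b * b' = b' * b := fun b hb b' hb' =>
    congrArg (fun z : A => (z : G)) (hA.1.is_comm.comm (⟨b, hb⟩ : A) ⟨b', hb'⟩)
  have hACa : A ≤ normalizer ((centralizer ({a} : Set G) : Subgroup G) : Set G) := by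
    intro b hb
    apply normalizer_of_conj
    intro x hx
    rw [mem_C] at hx ⊢
    have h1 := hAcomm a ha b hb
    have h2 : a * b⁻¹ = b⁻¹ * a := (Commute.inv_right (show Commute a b from h1)).eq
    calc a * (b * x * b⁻¹) = (a * b) * x * b⁻¹ := by group
      _ = b * (a * x) * b⁻¹ := by rw [h1]; group
      _ = b * (x * a) * b⁻¹ := by rw [hx]
      _ = b * x * (a * b⁻¹) := by group
      _ = b * x * b⁻¹ * a := by rw [h2]; group
  set T₁ : Subgroup G := normalizer (D : Set G) ⊓ Q₁ ⊓ centralizer ({a} : Set G) with hT₁d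
  set T₂ : Subgroup G := normalizer (D : Set G) ⊓ Q₂ ⊓ centralizer ({a} : Set G) with hT₂d
  have hNN : A ≤ normalizer ((normalizer (D : Set G) : Subgroup G) : Set G) := hAD.trans le_normalizer
  have hAT₁ : A ≤ normalizer (T₁ : Set G) := fun b hb =>
    H13.mem_normalizer_inf (H13.mem_normalizer_inf (hNN hb) (hA₁ hb)) (hACa hb)
  have hAT₂ : A ≤ normalizer (T₂ : Set G) := fun b hb =>
    H13.mem_normalizer_inf (H13.mem_normalizer_inf (hNN hb) (hA₂ hb)) (hACa hb)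
  set K : Subgroup G := θ a ⊓ normalizer (D : Set G) with hK
  have hAθ : A ≤ normalizer ((θ a : Subgroup G) : Set G) := fun b hb =>
    normalizer_of_conj (hfun.2.2.1 a ha ha1 b hb)
  have hAK : A ≤ normalizer (K : Set G) := fun b hb => H13.mem_normalizer_inf (hAθ hb) (hNN hb)
  have hKF : K ∈ signalizerFamily p A θ :=
    sf_le (sf_theta hθ ha ha1) inf_le_left (fun b hb u hu => (mem_normalizer_iff.mp (hAK hb) u).mp hu)
  have hT₁K : T₁ ≤ K := by
    intro x hx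
    obtain ⟨hx1, hx2⟩ := Subgroup.mem_inf.mp hx
    obtain ⟨hx3, hx4⟩ := Subgroup.mem_inf.mp hx1
    refine Subgroup.mem_inf.mpr ⟨h₁.1.2.2.2 a ha ha1 (Subgroup.mem_inf.mpr ⟨hx4, hx2⟩), hx3⟩
  have hT₂K : T₂ ≤ K := by
    intro x hx
    obtain ⟨hx1, hx2⟩ := Subgroup.mem_inf.mp hx
    obtain ⟨hx3, hx4⟩ := Subgroup.mem_inf.mp hx1
    refine Subgroup.mem_inf.mpr ⟨h₂.1.2.2.2 a ha ha1 (Subgroup.mem_inf.mpr ⟨hx4, hx2⟩), hx3⟩
  have hT₁Q : T₁ ≤ Q₁ := inf_le_left.trans inf_le_right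
  have hT₂Q : T₂ ≤ Q₂ := inf_le_left.trans inf_le_right
  have hAp : IsPGroup p A := by
    intro x
    refine ⟨1, Subtype.ext ?_⟩
    simpa using hA.2 x x.2
  have hAs : Group.IsSolvable A := solvable_of_pGroup hAp
  have hcop : (Nat.card A).Coprime (Nat.card K) := by
    obtain ⟨k, hk⟩ := IsPGroup.iff_card.mp hAp
    rw [hk]
    exact Nat.Coprime.pow_left k (sf_card_coprime hKF).symm
  obtain ⟨P₁, hP₁, hAP₁⟩ := H01.invariant_subgroup_le_invariant_sylow hAK hcop (Or.inl hAs) q T₁ hT₁K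
    (h₁.2.1.to_le hT₁Q) hAT₁
  obtain ⟨P₂, hP₂, hAP₂⟩ := H01.invariant_subgroup_le_invariant_sylow hAK hcop (Or.inl hAs) q T₂ hT₂K
    (h₂.2.1.to_le hT₂Q) hAT₂
  obtain ⟨c, hcA, hcP⟩ := H01.conj_invariant_sylow hAK hcop (Or.inl hAs) q P₁ P₂ hAP₁ hAP₂
  set R₁ : Subgroup G := (P₁ : Subgroup K).map K.subtype with hR₁
  set R₂ : Subgroup G := (P₂ : Subgroup K).map K.subtype with hR₂
  have hR₂e : R₁.map (MulAut.conj (c : G)).toMonoidHom = R₂ := by
    rw [hR₂, ← hcP, map_conj_sylow]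
  have hcW : (c : G) ∈ signalizerInf A θ :=
    mem_sigInf_of hfun le_rfl ha ha1 (Subgroup.mem_inf.mp c.2).1 (fun b hb =>
      (mem_centralizer_iff.mp hcA b hb))
  have hcD : (c : G) ∈ normalizer (D : Set G) := (Subgroup.mem_inf.mp c.2).2
  have hR₁K : R₁ ≤ K := by
    rintro _ ⟨x, _, rfl⟩
    exact x.2
  have hR₁F : R₁ ∈ signalizerFamily p A θ :=
    sf_le hKF hR₁K (fun b hb u hu => (mem_normalizer_iff.mp (hAP₁ hb) u).mp hu)
  have hR₁q : IsPGroup q R₁ := P₁.2.map K.subtype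
  have hR₁N : R₁ ≤ normalizer (D : Set G) := hR₁K.trans inf_le_right
  have hSF : D ⊔ R₁ ∈ signalizerFamily p A θ := sf_sup hA hDF hR₁F hR₁N
  have hSq : IsPGroup q (D ⊔ R₁ : Subgroup G) := IsPGroup.to_sup_of_normal_left' hDq hR₁q hR₁N
  obtain ⟨Q₃, hQ₃le, hQ₃⟩ := exists_maxQ hSF hSq
  have hQ₄ := maxQ_conj hfun hcW hQ₃
  set Q₄ := Q₃.map (MulAut.conj (c : G)).toMonoidHom with hQ₄d
  have hDQ₄ : D ≤ Q₄ := by
    intro x hx
    refine ⟨(c : G)⁻¹ * x * c, hQ₃le (mem_sup_left ?_), by simp [MulAut.conj_apply]; group⟩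
    have := (mem_normalizer_iff.mp (inv_mem hcD) x).mp hx
    simpa using this
  have hR₂Q₄ : R₂ ≤ Q₄ := by
    rw [← hR₂e]
    exact H13.map_conj_le_map_conj (le_sup_right.trans hQ₃le)
  have hcardD : Nat.card D ≤ Nat.card G := Subgroup.card_le_card_group D
  -- first step
  obtain ⟨c₁, hc₁, hc₁e⟩ : ∃ c ∈ signalizerInf A θ, Q₁.map (MulAut.conj c).toMonoidHom = Q₃ := by
    have hlt : D < Q₁ ⊓ Q₃ := by
      refine lt_of_le_of_ne (le_inf inf_le_left (le_sup_left.trans hQ₃le)) ?_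
      intro he
      apply hT₁
      rw [he]
      exact le_inf hT₁Q (hP₁.trans (le_sup_right.trans hQ₃le))
    have hcard : Nat.card D < Nat.card (Q₁ ⊓ Q₃ : Subgroup G) := lt_of_le_of_ne (Subgroup.card_le_of_le hlt.le) (fun h => hlt.ne (Subgroup.eq_of_le_of_card_ge hlt.le h.ge))
    have hle : Nat.card (Q₁ ⊓ Q₃ : Subgroup G) ≤ Nat.card G := Subgroup.card_le_card_group _
    exact ih (Nat.card G - Nat.card (Q₁ ⊓ Q₃ : Subgroup G)) (by omega) Q₁ Q₃ rfl h₁ hQ₃
  obtain ⟨c₂, hc₂, hc₂e⟩ : ∃ c ∈ signalizerInf A θ, Q₄.map (MulAut.conj c).toMonoidHom = Q₂ := by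
    have hlt : D < Q₄ ⊓ Q₂ := by
      refine lt_of_le_of_ne (le_inf hDQ₄ inf_le_right) ?_
      intro he
      apply hT₂
      rw [he]
      exact le_inf (hP₂.trans hR₂Q₄) hT₂Q
    have hcard : Nat.card D < Nat.card (Q₄ ⊓ Q₂ : Subgroup G) := lt_of_le_of_ne (Subgroup.card_le_of_le hlt.le) (fun h => hlt.ne (Subgroup.eq_of_le_of_card_ge hlt.le h.ge))
    have hle : Nat.card (Q₄ ⊓ Q₂ : Subgroup G) ≤ Nat.card G := Subgroup.card_le_card_group _
    exact ih (Nat.card G - Nat.card (Q₄ ⊓ Q₂ : Subgroup G)) (by omega) Q₄ Q₂ rfl hQ₄ h₂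
  refine ⟨c₂ * (c * c₁), mul_mem hc₂ (mul_mem hcW hc₁), ?_⟩
  rw [← H13.map_conj_mul, ← H13.map_conj_mul, hc₁e, ← hQ₄d, hc₂e]

/-- Transitivity theorem. -/
theorem transitivity (hA : IsElementaryAbelian p A) (hA3 : p ^ 3 ≤ Nat.card A)
    (hθ : IsSolvableSignalizerFunctor p A θ) {q : ℕ} [hq : Fact q.Prime] {Q₁ Q₂ : Subgroup G}
    (h₁ : IsMaxQ p A θ q Q₁) (h₂ : IsMaxQ p A θ q Q₂) :
    ∃ c ∈ signalizerInf A θ, Q₁.map (MulAut.conj c).toMonoidHom = Q₂ :=
  trans_aux hA hA3 hθ _ Q₁ Q₂ rfl h₁ h₂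

end trans

end Cfsg.Agent.H05
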